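import Cfsg.Agent.SylowNum.Tools
import Cfsg.Agent.SylowNum.Order3
import Cfsg.Agent.Invol.IndexTwo
import Cfsg.Agent.Invol.RankOneQuot

/-!
# No simple group has 21 Sylow 5-subgroups
-/

namespace Cfsg.Agent.SylowNum

open MulAction

variable {G : Type*} [Group G] [Finite G] [IsSimpleGroup G]

theorem center_eq_bot_of_nonabelian (hG : ¬ IsMulCommutative G) : Subgroup.center G = ⊥ := by
  refine (Subgroup.Normal.eq_bot_or_eq_top (inferInstance : (Subgroup.center G).Normal)).resolve_right
    fun h => hG ⟨⟨fun a b => ?_⟩⟩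
  exact (Subgroup.mem_center_iff.1 (h ▸ Subgroup.mem_top b) a)

theorem index_two_false (hG : ¬ IsMulCommutative G) (H : Subgroup G) (hH : H.index = 2) : False := by
  have hn : H.Normal := Subgroup.normal_of_index_eq_two hH
  rcases hn.eq_bot_or_eq_top with h | h
  · rw [h, Subgroup.index_bot] at hH
    have : Fact (Nat.Prime 2) := ⟨Nat.prime_two⟩
    have := isCyclic_of_prime_card hH
    exact hG IsCyclic.commutative
  · rw [h, Subgroup.index_top] at hH
    omega

/-- Z*-theorem in a simple group. -/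
theorem not_isolated (hG : ¬ IsMulCommutative G) (S : Sylow 2 G) (t : G) (ht : orderOf t = 2)
    (htS : t ∈ S) (hiso : ∀ g : G, g * t * g⁻¹ ∈ S → g * t * g⁻¹ = t) : False := by
  have : Fact (Nat.Prime 2) := ⟨Nat.prime_two⟩
  have hO : Cfsg.pPrimeCore 2 G = ⊥ := by
    refine (Subgroup.Normal.eq_bot_or_eq_top (inferInstance : (Cfsg.pPrimeCore 2 G).Normal)).resolve_right
      fun h => ?_
    have h1 := Cores.not_dvd_card_pPrimeCore (G := G) (p := 2)
    rw [h, Subgroup.card_top] at h1
    exact h1 (even_iff_two_dvd.1 (Invol.even_card_of_orderOf_eq_two ht))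
  have hc : t ∈ Subgroup.center G := Subgroup.mem_center_iff.2 fun x => by
    have h := Invol.zStar_theorem G t (Invol.isIsolatedInv_of_sylow S ht htS hiso) x
    rw [hO, Subgroup.mem_bot, commutatorElement_eq_one_iff_commute] at h
    exact h.eq.symm
  rw [center_eq_bot_of_nonabelian hG, Subgroup.mem_bot] at hc
  exact Invol.inv_ne_one ht hc

/-- No simple group has exactly 21 Sylow 5-subgroups. -/
theorem no_simple_twentyone (hG : ¬ IsMulCommutative G) [Fact (Nat.Prime 5)]
    (hn : Nat.card (Sylow 5 G) = 21) : False := by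
  classical
  have : Fintype (Sylow 5 G) := Fintype.ofFinite _
  have hn' : Fintype.card (Sylow 5 G) = 21 := by rw [← Nat.card_eq_fintype_card]; exact hn
  have h2f : Fact (Nat.Prime 2) := ⟨Nat.prime_two⟩
  obtain ⟨P⟩ : Nonempty (Sylow 5 G) := inferInstance
  have hpd : 5 ∣ Nat.card G := by
    by_contra h
    have h1 : ∀ R : Sylow 5 G, (R : Subgroup G) = ⊥ := fun R => Subgroup.card_eq_one.1
      (by rw [R.card_eq_multiplicity, Nat.factorization_eq_zero_of_not_dvd h, pow_zero])
    have : Fintype.card (Sylow 5 G) ≤ 1 := Fintype.card_le_one_iff.2 fun A B =>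
      Sylow.ext ((h1 A).trans (h1 B).symm)
    omega
  have hidx : ∀ A B : Sylow 5 G, A ≠ B → (B : Subgroup G).relIndex A = 5 := by
    intro A B hAB
    obtain ⟨k, hk, hk'⟩ := relIndex_sylow_eq_pow A B hAB
    have hle : Nat.card (orbit (↥(A : Subgroup G)) B) ≤ 20 := by
      rw [Nat.card_coe_set_eq]
      refine (Set.ncard_le_ncard (t := {A}ᶜ) ?_ (Set.toFinite _)).trans ?_
      · intro R hR h
        exact not_mem_orbit_sylow A B (Ne.symm hAB) (Set.mem_singleton_iff.1 h ▸ hR)
      · rw [Set.ncard_compl, Set.ncard_singleton, hn]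
    rw [card_orbit_sylow, hk'] at hle
    rw [hk']
    have hk2 : k < 2 := by
      by_contra h
      have := Nat.pow_le_pow_right (show 5 > 0 by norm_num) (le_of_not_gt h)
      omega
    interval_cases k
    · exact absurd rfl hk
    · rfl
  have hP5 : Nat.card (P : Subgroup G) = 5 := card_eq_of_relIndex_eq hG hpd hidx P
  set H := stabilizer G P with hH
  have hHN : H = Subgroup.normalizer ((P : Subgroup G) : Set G) := by
    ext g; exact Sylow.smul_eq_iff_mem_normalizer
  have hHi : H.index = 21 := by rw [hH, index_stabilizer_of_transitive, hn]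
  -- `P` acts semiregularly away from its fixed point
  have hsemi : ∀ Q : Sylow 5 G, Q ≠ P → ∀ u ∈ (P : Subgroup G), u • Q = Q → u = 1 := by
    intro Q hQ u hu huQ
    have h1 := card_inf_mul_relIndex P Q
    rw [hidx P Q (Ne.symm hQ), hP5] at h1
    have h2 : (P : Subgroup G) ⊓ Q = ⊥ := Subgroup.card_eq_one.1 (by omega)
    have h4 : (⟨u, hu⟩ : (P : Subgroup G)) ∈ stabilizer (↥(P : Subgroup G)) Q := huQ
    rw [stabilizer_sylow_eq, Subgroup.mem_subgroupOf] at h4
    have h5 : u ∈ (P : Subgroup G) ⊓ Q := ⟨hu, h4⟩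
    rwa [h2, Subgroup.mem_bot] at h5
  have hPfix : ∀ u ∈ (P : Subgroup G), u • P = P := fun u hu =>
    Sylow.smul_eq_iff_mem_normalizer.2 (Subgroup.le_normalizer hu)
  -- an involution is an even permutation
  have hfaith : FaithfulSMul G (Sylow 5 G) := by
    obtain ⟨Q, hQ⟩ := Fintype.exists_ne_of_one_lt_card (by omega : 1 < Fintype.card (Sylow 5 G)) P
    obtain ⟨g, hg⟩ := MulAction.exists_smul_eq G P Q
    exact faithfulSMul_of_moves (g := g) (a := P) (by rw [hg]; exact hQ)
  have heven : ∀ g : G, Equiv.Perm.sign (MulAction.toPermHom G (Sylow 5 G) g) = 1 := by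
    intro g
    by_contra h
    obtain ⟨H', hH'⟩ := Invol.exists_index_two_of_hom
      (Equiv.Perm.sign.comp (MulAction.toPermHom G (Sylow 5 G))) (x := g) h
    exact index_two_false hG H' hH'
  let F : G → Set (Sylow 5 G) := fun s => {Q | s • Q = Q ∧ Q ≠ P}
  have hmod4 : ∀ s : G, orderOf s = 2 → s • P = P → Nat.card (F s) % 4 = 0 := by
    intro s hs hsP
    set σ := MulAction.toPermHom G (Sylow 5 G) s with hσ
    have h1 := heven s
    rw [← hσ, Equiv.Perm.sign_of_pow_two_eq_one
      (by rw [hσ, ← map_pow, pow_two, Invol.inv_mul_self hs, map_one])] at h1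
    have h2 := neg_one_pow_eq_one_iff_even (R := ℤˣ) (by decide) |>.1 h1
    have h3 : Fintype.card (Function.fixedPoints σ) = Nat.card (F s) + 1 := by
      rw [← Nat.card_eq_fintype_card, Nat.card_coe_set_eq, Nat.card_coe_set_eq]
      rw [show Function.fixedPoints σ = insert P (F s) by
        ext Q
        show s • Q = Q ↔ _
        simp only [F, Set.mem_insert_iff, Set.mem_setOf_eq]
        constructor
        · intro h; by_cases hQ : Q = P
          · exact Or.inl hQ
          · exact Or.inr ⟨h, hQ⟩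
        · rintro (rfl | h)
          · exact hsP
          · exact h.1]
      exact Set.ncard_insert_of_notMem (fun h => h.2 rfl) (Set.toFinite _)
    have h4 : Fintype.card (Function.fixedPoints σ) ≤ 21 := by
      rw [← hn']; exact set_fintype_card_le_univ _
    rw [hn', h3] at h2
    rw [h3] at h4
    obtain ⟨j, hj⟩ := h2
    obtain ⟨i, hi⟩ : 2 ∣ 21 - (Nat.card (F s) + 1) := by
      have h5 := (Equiv.Perm.two_dvd_card_support (σ := σ)
        (by rw [hσ, ← map_pow, pow_two, Invol.inv_mul_self hs, map_one]))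
      rwa [← Equiv.Perm.sum_cycleType, Equiv.Perm.sum_cycleType,
        show σ.support = (Finset.univ.filter fun Q => ¬ σ Q = Q) from by ext Q; simp,
        Finset.filter_not, Finset.card_sdiff_of_subset (Finset.filter_subset _ _), Finset.card_univ,
        hn', ← Fintype.card_subtype, Fintype.card_congr (Equiv.refl _),
        show Fintype.card {Q // σ Q = Q} = Nat.card (F s) + 1 from h3 ▸ (Fintype.card_congr (Equiv.refl _))] at h5
    omega
  -- the two kinds of involutions in the stabiliser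
  have hcases : ∀ s : G, s * s = 1 → s • P = P →
      (∀ u ∈ (P : Subgroup G), Commute s u) ∨ (∀ u ∈ (P : Subgroup G), s * u * s⁻¹ = u⁻¹) := by
    intro s hs hsP
    have hnorm : ∀ u ∈ (P : Subgroup G), s * u * s⁻¹ ∈ (P : Subgroup G) := fun u hu =>
      (Subgroup.mem_normalizer_iff.1 (Sylow.smul_eq_iff_mem_normalizer.1 hsP) u).1 hu
    have : IsCyclic (P : Subgroup G) := isCyclic_of_prime_card hP5
    obtain ⟨⟨a, ha⟩, hgen⟩ := IsCyclic.exists_generator (α := (P : Subgroup G))
    have ha5 : a ^ 5 = 1 := by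
      have := pow_card_eq_one' (G := (P : Subgroup G)) (x := ⟨a, ha⟩)
      rw [hP5] at this
      exact congrArg Subtype.val this
    have hpw : ∀ u ∈ (P : Subgroup G), ∃ k : ℤ, a ^ k = u := fun u hu => by
      obtain ⟨k, hk⟩ := hgen ⟨u, hu⟩; exact ⟨k, congrArg Subtype.val hk⟩
    obtain ⟨k, hk⟩ := hpw _ (hnorm a ha)
    have hred : s * a * s⁻¹ = a ^ (k % 5).toNat := by
      rw [← hk, ← zpow_natCast, Int.toNat_of_nonneg (Int.emod_nonneg _ (by norm_num))]
      conv_lhs => rw [← Int.emod_add_mul_ediv k 5]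
      rw [zpow_add, zpow_mul, show (5 : ℤ) = ((5 : ℕ) : ℤ) from rfl, zpow_natCast, ha5, one_zpow,
        mul_one]
    obtain ⟨n, hn5, hn⟩ : ∃ n < 5, s * a * s⁻¹ = a ^ n := ⟨_, by omega, hred⟩
    have hsq : a ^ (n * n) = a := by
      rw [pow_mul, ← hn, conj_pow, ← hn, show s * (s * a * s⁻¹) * s⁻¹ = (s * s) * a * (s * s)⁻¹ by group,
        hs]
      group
    have hconj : ∀ j : ℤ, s * a ^ j * s⁻¹ = (s * a * s⁻¹) ^ j := fun j => (conj_zpow).symm
    by_cases ha1 : a = 1
    · exfalso
      have : Nat.card (P : Subgroup G) ≤ 1 := Finite.card_le_one_iff_subsingleton.2 ⟨fun x y => by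
        obtain ⟨i, hi⟩ := hgen x; obtain ⟨j, hj⟩ := hgen y
        apply Subtype.ext
        rw [← hi, ← hj]; simp [ha1]⟩
      omega
    have hord : orderOf a = 5 := orderOf_eq_prime ha5 ha1
    have hmod : n * n % 5 = 1 := by
      have h6 : a ^ (n * n) = a ^ 1 := by rw [pow_one]; exact hsq
      rw [pow_eq_pow_iff_modEq, hord] at h6
      exact h6
    have h14 : n = 1 ∨ n = 4 := by interval_cases n <;> omega
    rcases h14 with rfl | rfl
    · left
      intro u hu
      obtain ⟨j, rfl⟩ := hpw u hu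
      refine Invol.commute_iff_conj.2 ?_
      rw [hconj, hn, pow_one]
    · right
      intro u hu
      obtain ⟨j, rfl⟩ := hpw u hu
      rw [hconj, hn, show a ^ 4 = a⁻¹ from eq_inv_of_mul_eq_one_left (by rw [← pow_succ]; exact ha5),
        inv_zpow]
  have hcfix : ∀ s : G, orderOf s = 2 → (∀ u ∈ (P : Subgroup G), Commute s u) →
      ∀ Q : Sylow 5 G, Q ≠ P → s • Q ≠ Q := by
    intro s hs hc Q hQ hsQ
    have hsP : s • P = P := Sylow.smul_eq_iff_mem_normalizer.2
      (Subgroup.centralizer_le_normalizer _ fun u hu => (hc u hu).eq.symm)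
    let act : MulAction (P : Subgroup G) (F s) :=
      { smul := fun u R => ⟨(u : G) • R.1, by
          refine ⟨?_, fun e => R.2.2 ?_⟩
          · rw [← mul_smul, (hc u u.2).eq, mul_smul, R.2.1]
          · exact smul_left_cancel (u : G) (e.trans (hPfix u u.2).symm)⟩
        one_smul := fun R => Subtype.ext (one_smul G R.1)
        mul_smul := fun u v R => Subtype.ext (mul_smul (u : G) v R.1) }
    have hmod := (P.isPGroup').card_modEq_card_fixedPoints (F s)
    have h0 : Nat.card (MulAction.fixedPoints (P : Subgroup G) (F s)) = 0 := by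
      rw [Nat.card_eq_zero]
      refine Or.inl ⟨fun ⟨R, hR⟩ => ?_⟩
      have : Nontrivial (P : Subgroup G) := Finite.one_lt_card_iff_nontrivial.1 (by rw [hP5]; norm_num)
      obtain ⟨u, hu⟩ := exists_ne (1 : (P : Subgroup G))
      exact hu (Subtype.ext (hsemi R.1 R.2.2 u u.2 (congrArg Subtype.val (hR u))))
    rw [h0] at hmod
    unfold Nat.ModEq at hmod
    have h4 := hmod4 s hs hsP
    have hlt : Nat.card (F s) < 20 := by
      by_contra h
      have hall : ∀ R : Sylow 5 G, s • R = R := by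
        intro R
        by_cases hR : R = P
        · rw [hR]; exact hsP
        have hsub : F s ⊆ ({P}ᶜ : Set (Sylow 5 G)) := fun R hR => hR.2
        have := Set.eq_of_subset_of_ncard_le hsub (by
          rw [Set.ncard_compl, Set.ncard_singleton, hn, ← Nat.card_coe_set_eq]; omega) (Set.toFinite _)
        exact ((this.symm ▸ hR : R ∈ F s)).1
      exact Invol.inv_ne_one hs (FaithfulSMul.eq_of_smul_eq_smul (α := Sylow 5 G) fun R => by
        rw [one_smul]; exact hall R)
    have hpos : 0 < Nat.card (F s) := Nat.card_pos_iff.2 ⟨⟨⟨Q, hsQ, hQ⟩⟩, inferInstance⟩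
    omega
  obtain ⟨S, hSH⟩ : ∃ S : Sylow 2 G, (S : Subgroup G) ≤ H := by
    obtain ⟨T⟩ : Nonempty (Sylow 2 H) := inferInstance
    obtain ⟨S, hS⟩ := (T.2.map H.subtype).exists_le_sylow
    refine ⟨S, le_of_eq_of_le (Subgroup.eq_of_le_of_card_ge hS ?_).symm (Subgroup.map_subtype_le _)⟩
    rw [Subgroup.card_map_of_injective H.subtype_injective, S.card_eq_multiplicity,
      T.card_eq_multiplicity, ← H.card_mul_index, hHi,
      Nat.factorization_mul Nat.card_pos.ne' (by norm_num), Finsupp.add_apply,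
      Nat.factorization_eq_zero_of_not_dvd (show ¬ 2 ∣ 21 by norm_num), add_zero]
  have hsmulne : ∀ u ∈ (P : Subgroup G), ∀ R : Sylow 5 G, R ≠ P → u • R ≠ P := fun u hu R hR e =>
    hR (smul_left_cancel u (e.trans (hPfix u hu).symm))
  have hfive : ∀ u ∈ (P : Subgroup G), u ^ 5 = 1 := fun u hu => by
    have := pow_card_eq_one' (G := (P : Subgroup G)) (x := ⟨u, hu⟩)
    rw [hP5] at this
    exact congrArg Subtype.val this
  have hodd : ∀ u ∈ (P : Subgroup G), ∀ k : ℕ, u ^ 2 ^ k = 1 → u = 1 := fun u hu k h =>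
    orderOf_eq_one_iff.1 (Nat.eq_one_of_dvd_coprimes (a := 5) (b := 2 ^ k)
      (Nat.Coprime.pow_right k (by norm_num)) (orderOf_dvd_of_pow_eq_one (hfive u hu))
      (orderOf_dvd_of_pow_eq_one h))
  have hinj : ∀ s : G, (∀ u ∈ (P : Subgroup G), s * u * s⁻¹ = u⁻¹) →
      Function.Injective fun x : (F s) × (P : Subgroup G) =>
        (⟨(x.2 : G) • x.1.1, hsmulne _ x.2.2 _ x.1.2.2⟩ : {R : Sylow 5 G // R ≠ P}) := by
    rintro s hi ⟨A, u⟩ ⟨B, v⟩ h
    have h' : (u : G) • A.1 = (v : G) • B.1 := congrArg Subtype.val h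
    set w : G := (v : G)⁻¹ * u with hw
    have hwP : w ∈ (P : Subgroup G) := Subgroup.mul_mem _ (Subgroup.inv_mem _ v.2) u.2
    have hwA : w • A.1 = B.1 := by rw [hw, mul_smul, h', inv_smul_smul]
    have hw2 : w⁻¹ • A.1 = B.1 := by
      rw [← hi w hwP, mul_smul, mul_smul,
        show s⁻¹ • A.1 = A.1 by rw [inv_smul_eq_iff]; exact A.2.1.symm, hwA]
      exact B.2.1
    have h3 : w * w = 1 := hsemi A.1 A.2.2 _ (Subgroup.mul_mem _ hwP hwP) (by
      rw [mul_smul, hwA, ← hw2, smul_inv_smul])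
    have h4 : w = 1 := hodd w hwP 1 (by rw [pow_one, pow_two]; exact h3)
    have huv : (v : G) = u := by rwa [hw, inv_mul_eq_one] at h4
    rw [h4, one_smul] at hwA
    exact Prod.ext (Subtype.ext hwA) (Subtype.ext huv.symm)
  have hcompl : Nat.card {R : Sylow 5 G // R ≠ P} = 20 := by
    rw [Nat.card_eq_fintype_card, Fintype.card_subtype_compl, Fintype.card_subtype_eq, hn']
  have hinvol : ∀ x ∈ S, x ≠ 1 → ∃ k, orderOf (x ^ 2 ^ k) = 2 := by
    intro x hx h1
    obtain ⟨k, hk⟩ := IsPGroup.iff_orderOf.1 S.2 ⟨x, hx⟩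
    rw [Subgroup.orderOf_mk] at hk
    rcases k with _ | k
    · exact absurd (orderOf_eq_one_iff.1 hk) h1
    · refine ⟨k, ?_⟩
      rw [orderOf_pow_of_dvd (by positivity) (hk ▸ pow_dvd_pow 2 (Nat.le_succ k)), hk, pow_succ,
        Nat.mul_div_cancel_left _ (by positivity)]
  -- no involution of `S` fixes a second point
  have hone : ∀ t ∈ S, orderOf t = 2 → ∀ Q : Sylow 5 G, Q ≠ P → t • Q ≠ Q := by
    intro t htS ht Q hQ htQ
    have hinv : ∀ s ∈ S, orderOf s = 2 → (∃ R : Sylow 5 G, R ≠ P ∧ s • R = R) →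
        (∀ u ∈ (P : Subgroup G), s * u * s⁻¹ = u⁻¹) ∧ Nat.card (F s) = 4 := by
      intro s hsS hs ⟨R, hR, hsR⟩
      have hi := (hcases s (Invol.inv_mul_self hs) (hSH hsS)).resolve_left fun hc => hcfix s hs hc R hR hsR
      refine ⟨hi, ?_⟩
      have h4 := hmod4 s hs (hSH hsS)
      have hpos : 0 < Nat.card (F s) := Nat.card_pos_iff.2 ⟨⟨⟨R, hsR, hR⟩⟩, inferInstance⟩
      have hle := Nat.card_le_card_of_injective _ (hinj s hi)
      rw [Nat.card_prod, hP5, hcompl] at hle
      omega
    obtain ⟨hti, htc⟩ := hinv t htS ht ⟨Q, hQ, htQ⟩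
    refine not_isolated hG S t ht htS fun g hg => ?_
    set s := g * t * g⁻¹ with hsdef
    have hs : orderOf s = 2 := (Invol.orderOf_conj g t).trans ht
    obtain ⟨R, hR, hsR⟩ : ∃ R : Sylow 5 G, R ≠ P ∧ s • R = R := by
      have hfixg : ∀ R : Sylow 5 G, t • R = R → s • (g • R) = g • R := fun R h => by
        rw [hsdef, mul_smul, mul_smul, inv_smul_smul, h]
      by_cases h1 : g • Q = P
      · refine ⟨g • P, fun e => hQ ?_, hfixg P (hSH htS)⟩
        exact smul_left_cancel g (h1.trans e.symm)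
      · exact ⟨g • Q, h1, hfixg Q htQ⟩
    obtain ⟨hsi, -⟩ := hinv s hg hs ⟨R, hR, hsR⟩
    by_contra hne
    -- `x = s * t` centralises `P` and fixes a second point
    set x := s * t with hx
    have hxS : x ∈ S := Subgroup.mul_mem _ hg htS
    have hxc : ∀ u ∈ (P : Subgroup G), Commute x u := fun u hu => Invol.commute_iff_conj.2 (by
      rw [show x * u * x⁻¹ = s * (t * u * t⁻¹) * s⁻¹ by rw [hx]; group, hti u hu,
        hsi _ (inv_mem hu), inv_inv])
    have hbij := (Nat.bijective_iff_injective_and_card _).2 ⟨hinj t hti,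
      by rw [Nat.card_prod, hP5, hcompl, htc]⟩
    obtain ⟨⟨A, ⟨u, hu⟩⟩, hAu⟩ := hbij.2 ⟨R, hR⟩
    have hAR : u • A.1 = R := congrArg Subtype.val hAu
    have htu : t • u⁻¹ • A.1 = u • A.1 := by
      rw [← mul_smul, show t * u⁻¹ = (t * u⁻¹ * t⁻¹) * t by group, hti _ (inv_mem hu), inv_inv,
        mul_smul, A.2.1]
    have hxA : x • A.1 = (u * u) • A.1 := by
      conv_lhs => rw [show A.1 = u • u⁻¹ • A.1 from (smul_inv_smul u A.1).symm, ← mul_smul,
        (hxc u hu).eq, mul_smul]
      rw [show x • u⁻¹ • A.1 = s • t • u⁻¹ • A.1 from mul_smul _ _ _, htu, hAR, hsR, ← hAR, mul_smul]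
    have hpow : ∀ n : ℕ, x ^ n • A.1 = (u * u) ^ n • A.1 := by
      intro n
      induction n with
      | zero => rw [pow_zero, pow_zero]
      | succ n ih =>
        rw [pow_succ, mul_smul, hxA, ← mul_smul,
          ((hxc _ (Subgroup.mul_mem _ hu hu)).pow_left n).eq, mul_smul, ih, ← mul_smul, ← pow_succ']
    obtain ⟨k, hk⟩ := IsPGroup.iff_orderOf.1 S.2 ⟨x, hxS⟩
    rw [Subgroup.orderOf_mk] at hk
    have huu : (u * u) ^ 2 ^ k = 1 := hsemi A.1 A.2.2 _
      (Subgroup.pow_mem _ (Subgroup.mul_mem _ hu hu) _)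
      (by rw [← hpow, ← hk, pow_orderOf_eq_one, one_smul])
    rw [hodd _ (Subgroup.mul_mem _ hu hu) k huu, one_smul] at hxA
    have hx1 : x ≠ 1 := fun e => hne (by
      rw [hx, mul_eq_one_iff_eq_inv, Invol.inv_eq ht] at e; exact e)
    obtain ⟨j, hj⟩ := hinvol x hxS hx1
    refine hcfix _ hj (fun v hv => (hxc v hv).pow_left _) A.1 A.2.2 ?_
    exact (MulAction.mem_stabilizer_iff).1 ((stabilizer G A.1).pow_mem hxA _)
  -- hence `S` has order at most four
  obtain ⟨Q, hQ⟩ := Fintype.exists_ne_of_one_lt_card (by omega : 1 < Fintype.card (Sylow 5 G)) P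
  have hSP : ∀ s ∈ S, ∀ u ∈ (P : Subgroup G), s * u * s⁻¹ ∈ (P : Subgroup G) := fun s hs u hu =>
    (Subgroup.mem_normalizer_iff.1 (hHN ▸ hSH hs) u).1 hu
  have hS4 : Nat.card (S : Subgroup G) ≤ 4 := by
    let f : ↥(S : Subgroup G) × ↥(P : Subgroup G) → {R : Sylow 5 G // R ≠ P} := fun x =>
      ⟨(x.2 : G) • (x.1 : G) • Q, hsmulne _ x.2.2 _ fun e =>
        hQ (smul_left_cancel (x.1 : G) (e.trans (hSH x.1.2 : (x.1 : G) • P = P).symm))⟩
    have hf : Function.Injective f := by
      rintro ⟨⟨s, hs⟩, ⟨u, hu⟩⟩ ⟨⟨s', hs'⟩, ⟨v, hv⟩⟩ h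
      have h' : u • s • Q = v • s' • Q := congrArg Subtype.val h
      set w := s'⁻¹ * (v⁻¹ * u) * s' with hw
      have hwP : w ∈ (P : Subgroup G) := by
        have := hSP s'⁻¹ (inv_mem hs') _ (Subgroup.mul_mem _ (inv_mem hv) hu)
        rwa [inv_inv] at this
      set y := s'⁻¹ * s with hy
      have hyS : y ∈ S := Subgroup.mul_mem _ (inv_mem hs') hs
      have hwy : w • y • Q = Q := by
        rw [← mul_smul, show w * y = s'⁻¹ * v⁻¹ * (u * s) by rw [hw, hy]; group, mul_smul (s'⁻¹ * v⁻¹),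
          mul_smul u, h', ← mul_smul v, ← mul_smul, show s'⁻¹ * v⁻¹ * (v * s') = 1 by group, one_smul]
      have hy1 : y = 1 := by
        by_contra hy1
        obtain ⟨k, hk⟩ := hinvol y hyS hy1
        set z := y ^ 2 ^ k with hz
        have hzS : z ∈ S := Subgroup.pow_mem _ hyS _
        obtain ⟨a, ha, hza⟩ : ∃ a ∈ (P : Subgroup G), z • Q = a • Q := by
          have : ∀ n : ℕ, ∃ a ∈ (P : Subgroup G), y ^ n • Q = a • Q := by
            intro n
            induction n with
            | zero => exact ⟨1, one_mem _, by simp⟩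
            | succ n ih =>
              obtain ⟨a, ha, hn⟩ := ih
              refine ⟨y * a * y⁻¹ * w⁻¹, Subgroup.mul_mem _ (hSP y hyS a ha) (inv_mem hwP), ?_⟩
              have hyQ : w⁻¹ • Q = y • Q := inv_smul_eq_iff.2 hwy.symm
              calc y ^ (n + 1) • Q = y • (y ^ n • Q) := by rw [pow_succ']; exact mul_smul y _ Q
                _ = y • (a • Q) := by rw [hn]
                _ = (y * a * y⁻¹) • (y • Q) := by rw [smul_smul, smul_smul, inv_mul_cancel_right]
                _ = (y * a * y⁻¹) • (w⁻¹ • Q) := by rw [hyQ]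
                _ = (y * a * y⁻¹ * w⁻¹) • Q := smul_smul _ _ _
          exact this _
        rcases hcases z (Invol.inv_mul_self hk) (hSH hzS) with hc | hi
        · have h2 : (a * a) • Q = Q := by
            rw [mul_smul, ← hza, ← mul_smul, ← (hc a ha).eq, mul_smul, ← hza, ← mul_smul,
              Invol.inv_mul_self hk, one_smul]
          have h3 : a = 1 := hodd a ha 1 (by
            rw [pow_one, pow_two]; exact hsemi Q hQ _ (Subgroup.mul_mem _ ha ha) h2)
          exact hone z hzS hk Q hQ (by rw [hza, h3, one_smul])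
        · refine hone z hzS hk (a ^ 3 • Q) (hsmulne _ (Subgroup.pow_mem _ ha 3) Q hQ) ?_
          rw [← mul_smul, show z * a ^ 3 = (z * a ^ 3 * z⁻¹) * z by group,
            hi _ (Subgroup.pow_mem _ ha 3), mul_smul, hza, ← mul_smul]
          congr 1
          rw [inv_mul_eq_iff_eq_mul, ← pow_add, show a ^ (3 + 3) = a ^ 5 * a from pow_succ a 5,
            hfive a ha, one_mul]
      rw [hy1, one_smul] at hwy
      have hw1 := hsemi Q hQ w hwP hwy
      have hss : s' = s := by rw [hy, inv_mul_eq_one] at hy1; exact hy1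
      have huv : v = u := by
        rw [hw, mul_assoc, inv_mul_eq_one, eq_comm, mul_eq_right, inv_mul_eq_one] at hw1
        exact hw1
      simp only [hss, huv]
    have hle := Nat.card_le_card_of_injective f hf
    rw [Nat.card_prod, hP5, hcompl] at hle
    omega
  -- some element of `S` does not centralise `P`
  obtain ⟨s₀, hs₀, hs₀c⟩ : ∃ s ∈ S, ¬ ∀ u ∈ (P : Subgroup G), Commute s u := by
    by_contra! hall
    set C := Subgroup.centralizer ((P : Subgroup G) : Set G) with hC
    have hSC : (S : Subgroup G) ≤ C := fun s hs => Subgroup.mem_centralizer_iff.2 fun u hu =>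
      (hall s hs u hu).eq.symm
    have hPnc : Subgroup.normalizer ((P : Subgroup G) : Set G) ≤ C := by
      set K := Subgroup.normalizer ((P : Subgroup G) : Set G)
      have hCK : C ≤ K := Subgroup.centralizer_le_normalizer _
      have h1 : C.relIndex K ∣ 4 := by
        have : IsCyclic (P : Subgroup G) := isCyclic_of_prime_card hP5
        have h := (Subgroup.normalizerMonoidHom (P : Subgroup G)).range.card_subgroup_dvd_card
        rw [← Subgroup.index_ker, Subgroup.normalizerMonoidHom_ker, IsCyclic.card_mulAut, hP5] at h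
        exact h
      have h2 : C.relIndex K ∣ (S : Subgroup G).index :=
        (Subgroup.relIndex_dvd_of_le_left K hSC).trans
          (Dvd.intro _ (Subgroup.relIndex_mul_index (hSH.trans hHN.le)))
      have h3 : C.relIndex K = 1 := Nat.eq_one_of_dvd_coprimes
        (show Nat.Coprime 4 (S : Subgroup G).index from by
          rw [show 4 = 2 ^ 2 from rfl]
          exact Nat.Coprime.pow_left 2 ((Nat.Prime.coprime_iff_not_dvd Nat.prime_two).2 S.not_dvd_index))
        h1 h2
      exact Subgroup.relIndex_eq_one.1 h3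
    have hc := MonoidHom.ker_transferSylow_isComplement' P hPnc
    rcases (inferInstance : (MonoidHom.transferSylow P hPnc).ker.Normal).eq_bot_or_eq_top with h | h
    · rw [h, Subgroup.isComplement'_bot_left] at hc
      rw [hc, Subgroup.card_top] at hP5
      have := H.card_mul_index
      rw [hHi, hP5] at this
      omega
    · rw [h, Subgroup.isComplement'_top_left] at hc
      rw [hc, Subgroup.card_bot] at hP5
      omega
  have heven' : Even (Nat.card G) := by
    by_contra h
    have h1 : Nat.card (S : Subgroup G) = 1 := by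
      rw [S.card_eq_multiplicity, Nat.factorization_eq_zero_of_not_dvd (fun h' => h (even_iff_two_dvd.2 h')),
        pow_zero]
    have : s₀ = 1 := by
      rw [Subgroup.card_eq_one] at h1
      have h2 : s₀ ∈ (S : Subgroup G) := hs₀
      rwa [h1, Subgroup.mem_bot] at h2
    exact hs₀c fun u _ => this ▸ Commute.one_left u
  have hncyc : ¬ IsCyclic (S : Subgroup G) := fun h => by
    obtain ⟨H', hH'⟩ := Invol.exists_index_two_of_cyclic_sylow heven' S h
    exact index_two_false hG H' hH'
  have hS4' : Nat.card (S : Subgroup G) = 4 := by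
    obtain ⟨k, hk⟩ := S.2.exists_card_eq
    have hk2 : k ≤ 2 := (Nat.pow_le_pow_iff_right (a := 2) (by norm_num)).1 (by rw [← hk]; exact hS4)
    interval_cases k
    · haveI := (Nat.card_eq_one_iff_unique.1 (show Nat.card (S : Subgroup G) = 1 by simpa using hk)).1
      exact absurd isCyclic_of_subsingleton hncyc
    · exact absurd (isCyclic_of_prime_card (p := 2) (by simpa using hk)) hncyc
    · simpa using hk
  have hsq : ∀ s ∈ S, s * s = 1 := by
    intro s hs
    by_contra h
    refine hncyc (isCyclic_of_orderOf_eq_card (⟨s, hs⟩ : (S : Subgroup G)) ?_)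
    obtain ⟨k, hk⟩ := IsPGroup.iff_orderOf.1 S.2 ⟨s, hs⟩
    have hd : orderOf (⟨s, hs⟩ : (S : Subgroup G)) ∣ 4 := hS4' ▸ orderOf_dvd_natCard _
    have hk2 : k ≤ 2 := (Nat.pow_dvd_pow_iff_le_right (by norm_num)).1 (hk ▸ hd : 2 ^ k ∣ 2 ^ 2)
    rw [Subgroup.orderOf_mk] at hk ⊢
    interval_cases k
    · rw [pow_zero, orderOf_eq_one_iff] at hk
      exact absurd (by rw [hk, one_mul]) h
    · have := pow_orderOf_eq_one s
      rw [hk, pow_one, pow_two] at this
      exact absurd this h
    · rw [hk, hS4']; rfl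
  have hs₀i := (hcases s₀ (hsq s₀ hs₀) (hSH hs₀)).resolve_left hs₀c
  -- the centralising involution
  obtain ⟨z, hzS, hz1, hzc⟩ : ∃ z ∈ S, z ≠ 1 ∧ ∀ u ∈ (P : Subgroup G), Commute z u := by
    obtain ⟨⟨s₁, hs₁⟩, h1⟩ : ∃ s₁ : (S : Subgroup G), s₁ ∉ ({1, ⟨s₀, hs₀⟩} : Set _) := by
      by_contra! hall
      have := Set.ncard_le_ncard (s := (Set.univ : Set (S : Subgroup G))) (fun x _ => hall x) (Set.toFinite _)
      rw [Set.ncard_univ, hS4'] at this
      exact absurd (this.trans (Set.ncard_insert_le _ _)) (by simp)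
    simp only [Set.mem_insert_iff, Set.mem_singleton_iff, Subgroup.mk_eq_one, Subtype.mk.injEq, not_or] at h1
    rcases hcases s₁ (hsq s₁ hs₁) (hSH hs₁) with hc | hi
    · exact ⟨s₁, hs₁, h1.1, hc⟩
    · refine ⟨s₀ * s₁, Subgroup.mul_mem _ hs₀ hs₁, fun e => h1.2 ?_, fun u hu => Invol.commute_iff_conj.2 ?_⟩
      · rw [eq_inv_of_mul_eq_one_right e, inv_eq_of_mul_eq_one_left (hsq s₀ hs₀)]
      · rw [show s₀ * s₁ * u * (s₀ * s₁)⁻¹ = s₀ * (s₁ * u * s₁⁻¹) * s₀⁻¹ by group, hi u hu,
          hs₀i _ (inv_mem hu), inv_inv]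
  have hz : orderOf z = 2 := Invol.orderOf_eq_two (hsq z hzS) hz1
  refine not_isolated hG S z hz hzS fun g hg => ?_
  set s := g * z * g⁻¹ with hsdef
  have hs2 : orderOf s = 2 := (Invol.orderOf_conj g z).trans hz
  have hgP : g • P = P := by
    by_contra hne
    exact hone s hg hs2 _ hne (by rw [hsdef, mul_smul, mul_smul, inv_smul_smul, (hSH hzS : z • P = P)])
  have hgn := Sylow.smul_eq_iff_mem_normalizer.1 hgP
  have hsc : ∀ u ∈ (P : Subgroup G), Commute s u := fun u hu => by
    have h1 := (hzc (g⁻¹ * u * g) ((Subgroup.mem_normalizer_iff'.1 hgn _).2 (by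
      rwa [show g * (g⁻¹ * u) = u by group]))).map (MulAut.conj g).toMonoidHom
    simp only [MulEquiv.coe_toMonoidHom, MulAut.conj_apply] at h1
    rwa [show g * (g⁻¹ * u * g) * g⁻¹ = u by group] at h1
  by_contra hne
  refine hs₀c fun u hu => ?_
  -- `S` is generated by `s` and `z`
  have hne' : s * z ≠ 1 := fun e => hne (by rw [eq_inv_of_mul_eq_one_left e, Invol.inv_eq hz])
  have hfour : ({1, ⟨s, hg⟩, ⟨z, hzS⟩, ⟨s * z, Subgroup.mul_mem _ hg hzS⟩} : Set (S : Subgroup G)) = Set.univ := by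
    refine Set.eq_of_subset_of_ncard_le (Set.subset_univ _) ?_ (Set.toFinite _)
    rw [Set.ncard_univ, hS4', Set.ncard_insert_of_notMem, Set.ncard_insert_of_notMem,
      Set.ncard_pair]
    · simp only [ne_eq, Subtype.mk.injEq, right_eq_mul]
      exact Invol.inv_ne_one hs2
    · simp only [Set.mem_insert_iff, Set.mem_singleton_iff, Subtype.mk.injEq, left_eq_mul, not_or]
      exact ⟨hne, hz1⟩
    · simp only [Set.mem_insert_iff, Set.mem_singleton_iff, Subtype.ext_iff, OneMemClass.coe_one, not_or]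
      exact ⟨(Invol.inv_ne_one hs2).symm, hz1.symm, Ne.symm hne'⟩
  have h0 : (⟨s₀, hs₀⟩ : (S : Subgroup G)) ∈ (Set.univ : Set _) := trivial
  rw [← hfour] at h0
  simp only [Set.mem_insert_iff, Set.mem_singleton_iff, Subtype.ext_iff, OneMemClass.coe_one] at h0
  rcases h0 with h | h | h | h <;> rw [h]
  · exact Commute.one_left u
  · exact hsc u hu
  · exact hzc u hu
  · exact (hsc u hu).mul_left (hzc u hu)

end Cfsg.Agent.SylowNum
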