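import Mathlib
import Cfsg.Agent.SylowNum.Hall
import Cfsg.Agent.SylowNum.Tools
import Cfsg.Agent.PSolv.Basic
import Cfsg.Agent.Linear.Orders
import Cfsg.Agent.S4700

set_option autoImplicit false
set_option linter.style.haveILetI false
set_option linter.unusedSectionVars false

/-! Fewer than `p ^ 2` Sylow `p`-subgroups: `p`-solvability against prime-power Sylow number. -/

open Subgroup Cfsg
open scoped commutatorElement

namespace Cfsg.Agent.SylowPSolv

universe u

variable {p : ℕ} [hp : Fact p.Prime]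

theorem add_one_le {m : ℕ} (h1 : 1 < m) (hmod : m % p = 1) : p + 1 ≤ m := by
  have h := Nat.div_add_mod m p
  rcases Nat.eq_zero_or_pos (m / p) with h0 | h0
  · rw [h0, hmod] at h; omega
  · have : p ≤ p * (m / p) := Nat.le_mul_of_pos_right p h0
    omega

theorem sylow_mod (G : Type*) [Group G] [Finite G] : Nat.card (Sylow p G) % p = 1 := by
  have := card_sylow_modEq_one p G
  rwa [Nat.ModEq, Nat.mod_eq_of_lt hp.out.one_lt] at this

theorem sylow_cases (G : Type*) [Group G] [Finite G] :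
    Nat.card (Sylow p G) = 1 ∨ p + 1 ≤ Nat.card (Sylow p G) := by
  have h0 : 0 < Nat.card (Sylow p G) := Nat.card_pos
  by_cases h : Nat.card (Sylow p G) = 1
  · exact .inl h
  · exact .inr (add_one_le (by omega) (sylow_mod G))

theorem sq_lt_mul {a b : ℕ} (ha : p + 1 ≤ a) (hb : p + 1 ≤ b) : p ^ 2 < a * b := by
  have := Nat.mul_le_mul ha hb
  nlinarith

/-- One direction: in a `p`-solvable group a small Sylow number is a prime power. -/
theorem prime_power_of_isPSolvable : ∀ (N : ℕ) (G : Type u) [Group G] [Finite G],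
    Nat.card G = N → IsPSolvable p G → Nat.card (Sylow p G) < p ^ 2 →
    ∃ q k : ℕ, q.Prime ∧ Nat.card (Sylow p G) = q ^ k := by
  intro N
  induction N using Nat.strong_induction_on with
  | _ N ih =>
    intro G _ _ hN hs hn
    subst hN
    rcases sylow_cases (p := p) G with h1 | h1
    · exact ⟨2, 0, Nat.prime_two, by rw [h1, pow_zero]⟩
    obtain ⟨P⟩ : Nonempty (Sylow p G) := inferInstance
    have hG : Nontrivial G := by
      by_contra hG
      haveI := not_nontrivial_iff_subsingleton.1 hG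
      have : Subsingleton (Sylow p G) := ⟨fun a b => Sylow.ext (Subsingleton.elim _ _)⟩
      rw [Nat.card_of_subsingleton P] at h1
      have := hp.out.pos; omega
    obtain ⟨M, hMn, -, hM, hM'⟩ :=
      PSolv.exists_normal_le_of_isPSolvable hs (⊤ : Subgroup G) top_ne_bot
    haveI := hMn
    have hlt : Nat.card (G ⧸ M) < Nat.card G := by
      rw [card_eq_card_quotient_mul_card_subgroup M]
      exact lt_mul_of_one_lt_right Nat.card_pos (M.one_lt_card_iff_ne_bot.2 hM)
    have hquot : Nat.card (Sylow p (G ⧸ M)) < p ^ 2 →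
        ∃ q k : ℕ, q.Prime ∧ Nat.card (Sylow p (G ⧸ M)) = q ^ k := fun h =>
      ih _ hlt (G ⧸ M) rfl (PSolv.isPSolvable_quotient hs M) h
    rcases hM' with hMp | hMc
    · rw [SylowNum.card_sylow_pGroup_normal P M hMp] at hn ⊢
      exact hquot hn
    have hMd : ¬ p ∣ Nat.card M := (Nat.Prime.coprime_iff_not_dvd hp.out).1 hMc.symm
    have hmul := SylowNum.card_sylow_eq_mul P M
    rcases sylow_cases (p := p) ↥((P : Subgroup G) ⊔ M) with h2 | h2
    · rw [h2, mul_one] at hmul
      rw [hmul] at hn ⊢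
      exact hquot hn
    rcases sylow_cases (p := p) (G ⧸ M) with h3 | h3
    swap
    · have := sq_lt_mul h3 h2
      omega
    rw [h3, one_mul] at hmul
    by_cases hK : (P : Subgroup G) ⊔ M = ⊤
    swap
    · rw [hmul] at hn ⊢
      refine ih _ ?_ _ rfl (PSolv.isPSolvable_subgroup hs _) hn
      exact lt_of_le_of_ne (card_le_card_group _) fun h => hK (eq_top_of_card_eq _ h)
    set n := Nat.card (Sylow p G) with hndef
    have hn0 : n ≠ 0 := Nat.card_pos.ne'
    have hbig : ∀ r, r.Prime → r ∣ n → p + 1 ≤ r ^ n.factorization r := fun r hr hd =>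
      add_one_le (Nat.one_lt_pow (hr.factorization_pos_of_dvd hn0 hd).ne' hr.one_lt)
        (SylowNum.card_sylow_coprime_case P M hK hMd r hr hd)
    have hn1 : n ≠ 1 := by have := hp.out.pos; omega
    refine ⟨n.minFac, n.primeFactorsList.length, Nat.minFac_prime hn1, ?_⟩
    refine Nat.eq_prime_pow_of_unique_prime_dvd hn0 fun {d} hd hdn => ?_
    by_contra hne
    have hq := Nat.minFac_prime hn1
    have hqn := n.minFac_dvd
    have hdvd : d ^ n.factorization d * n.minFac ^ n.factorization n.minFac ∣ n :=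
      (Nat.Coprime.pow _ _ ((Nat.coprime_primes hd hq).2 hne)).mul_dvd_of_dvd_of_dvd
        (Nat.ordProj_dvd n d) (Nat.ordProj_dvd n n.minFac)
    have := Nat.le_of_dvd (Nat.pos_of_ne_zero hn0) hdvd
    have := sq_lt_mul (hbig d hd hdn) (hbig _ hq hqn)
    omega

/-- A prime power dividing a product of coprime numbers divides a factor. -/
theorem pow_dvd_or {q k a b : ℕ} (hq : q.Prime) (hab : a.Coprime b) (h : q ^ k ∣ a * b) :
    q ^ k ∣ a ∨ q ^ k ∣ b := by
  by_cases hqa : q ∣ a
  · refine .inl (Nat.Coprime.dvd_of_dvd_mul_right ?_ h)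
    refine ((hq.coprime_iff_not_dvd).2 fun hqb => ?_).pow_left k
    exact hq.ne_one (Nat.eq_one_of_dvd_coprimes hab hqa hqb)
  · exact .inr (Nat.Coprime.dvd_of_dvd_mul_left (((hq.coprime_iff_not_dvd).2 hqa).pow_left k) h)

theorem psl_case {q k : ℕ} (hq : q.Prime) (hp3 : 3 < p)
    (hp2 : ¬ (3 < p ∧ ∃ k : ℕ, p + 1 = 2 ^ k)) (hn : p + 1 ≤ q ^ k)
    (hd : 2 * q ^ k ∣ (p - 1) * (p + 1)) : False := by
  obtain ⟨r, hr⟩ := hp.out.odd_of_ne_two (by omega)
  have hd' : q ^ k * 2 ∣ (2 * r * (r + 1)) * 2 := by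
    rw [mul_comm (q ^ k) 2]
    refine hd.trans (dvd_of_eq ?_)
    rw [show p - 1 = 2 * r by omega, show p + 1 = 2 * (r + 1) by omega]
    ring
  have hd2 : q ^ k ∣ 2 * r * (r + 1) := Nat.dvd_of_mul_dvd_mul_right (by norm_num) hd'
  have hcases : q ^ k ∣ 2 * r ∨ q ^ k ∣ 2 * (r + 1) := by
    by_cases hqr : q ∣ r + 1
    · refine .inr (Nat.Coprime.dvd_of_dvd_mul_left (m := r) ?_ (by
        rw [show r * (2 * (r + 1)) = 2 * r * (r + 1) by ring]; exact hd2))
      refine ((hq.coprime_iff_not_dvd).2 fun hqr' => ?_).pow_left k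
      exact hq.ne_one (Nat.eq_one_of_dvd_coprimes (Nat.coprime_self_add_right.2 (by simp)) hqr' hqr)
    · exact .inl (Nat.Coprime.dvd_of_dvd_mul_right
        (((hq.coprime_iff_not_dvd).2 hqr).pow_left k) hd2)
  rcases hcases with h | h
  · have := Nat.le_of_dvd (by omega) h
    omega
  · have := Nat.le_of_dvd (by omega) h
    have heq : q ^ k = p + 1 := by omega
    have h2q : 2 ∣ q :=
      Nat.prime_two.dvd_of_dvd_pow (n := k) ⟨r + 1, by omega⟩
    have := (Nat.prime_dvd_prime_iff_eq Nat.prime_two hq).1 h2q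
    exact hp2 ⟨hp3, k, by rw [← heq, ← this]⟩

theorem sl_case {q k m : ℕ} (hq : q.Prime) (hpm : p = 2 ^ m + 1) (hn : p + 1 ≤ q ^ k)
    (hd : q ^ k ∣ 2 ^ m * (2 ^ m - 1)) (hm : 1 < 2 ^ m) : False := by
  have hc : (2 ^ m).Coprime (2 ^ m - 1) := by
    have h := (Nat.coprime_self_add_right (m := 2 ^ m - 1) (n := 1)).2 (by simp)
    rw [Nat.sub_add_cancel hm.le] at h
    exact h.symm
  rcases pow_dvd_or hq hc hd with h | h
  · have := Nat.le_of_dvd (by omega) h; omega
  · have := Nat.le_of_dvd (by omega) h; omega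

theorem formula_case {q k a h u : ℕ} (hq : q.Prime) (hap : a < p) (hh : 0 < h) (hu : 0 < u)
    (he : a * (u + 1) = h * u * p + u ^ 2 + u + h) (hn : q ^ k = 1 + a * p) : False := by
  have hp2 := hp.out.two_le
  have hhu : h * u ≤ u := by
    by_contra hlt
    have h1 : (u + 1) * p ≤ h * u * p := Nat.mul_le_mul_right p (by omega)
    have h2 : a * (u + 1) ≤ p * (u + 1) := Nat.mul_le_mul_right _ hap.le
    nlinarith
  have hh1 : h = 1 := by
    by_contra hne
    have := Nat.mul_le_mul_right u (show 2 ≤ h by omega)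
    omega
  subst hh1
  have hua : u < a := by
    by_contra hle
    have := Nat.mul_le_mul_right (u + 1) (Nat.not_lt.1 hle)
    nlinarith
  obtain ⟨A, rfl⟩ : ∃ A, a = u + A := ⟨a - u, by omega⟩
  have hA : A * (u + 1) = u * p + 1 := by nlinarith
  have hA0 : A ≠ 0 := by rintro rfl; simp at hA
  have hA1 : A ≠ 1 := by
    rintro rfl
    rw [one_mul] at hA
    have : u * p = u * 1 := by omega
    have := Nat.eq_of_mul_eq_mul_left hu this
    omega
  have hn' : q ^ k = A * (p + u + 1) := by rw [hn]; nlinarith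
  obtain ⟨i, -, hi⟩ := (Nat.dvd_prime_pow hq).1 (Dvd.intro _ hn'.symm)
  obtain ⟨j, -, hj⟩ := (Nat.dvd_prime_pow hq).1 (Dvd.intro_left _ hn'.symm)
  have hAB : A < p + u + 1 := by omega
  have hij : i < j := by
    rw [hi, hj] at hAB
    exact (Nat.pow_lt_pow_iff_right hq.one_lt).1 hAB
  obtain ⟨d, hd, rfl⟩ : ∃ d, d ≠ 0 ∧ j = i + d := ⟨j - i, by omega, by omega⟩
  rw [pow_add, ← hi] at hj
  have h2A : p + 1 ≤ 2 * A := by
    refine Nat.le_of_mul_le_mul_right (c := u + 1) ?_ (by omega)
    obtain ⟨v, rfl⟩ : ∃ v, u = v + 1 := ⟨u - 1, by omega⟩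
    have : v ≤ v * p := Nat.le_mul_of_pos_right v (by omega)
    nlinarith
  have hc4 : q ^ d < 4 := by
    refine Nat.lt_of_mul_lt_mul_left (a := A) ?_
    rw [← hj]; omega
  have hc2 : 2 ≤ q ^ d := (Nat.one_lt_pow hd hq.one_lt)
  obtain hc | hc : q ^ d = 2 ∨ q ^ d = 3 := by omega
  · -- `c = 2`
    rw [hc] at hj
    have hq2 : q = 2 := ((Nat.prime_dvd_prime_iff_eq hq Nat.prime_two).1 (hc ▸ dvd_pow_self q hd))
    have hA' : (A : ℤ) * (u - 1) = u ^ 2 + u - 1 := by
      have e1 : (A : ℤ) * (u + 1) = u * p + 1 := by exact_mod_cast hA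
      have e2 : (p : ℤ) + u + 1 = A * 2 := by exact_mod_cast hj
      linear_combination (-1 : ℤ) * e1 + (-(u : ℤ)) * e2
    have hunit : ((u : ℤ) - 1) * (A - u - 2) = 1 := by linear_combination hA'
    rcases Int.eq_one_or_neg_one_of_mul_eq_one hunit with h | h
    · have hu2 : (u : ℤ) = 2 := by linarith
      rw [hu2] at hA'
      have hA5 : A = 5 := by omega
      rw [hA5, hq2] at hi
      rcases i with _ | _ | _ | i
      all_goals simp [pow_succ] at hi
      have : 0 < 2 ^ i := by positivity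
      omega
    · omega
  · rw [hc] at hj
    have hA' : (A : ℤ) * (2 * u - 1) = u ^ 2 + u - 1 := by
      have e1 : (A : ℤ) * (u + 1) = u * p + 1 := by exact_mod_cast hA
      have e2 : (p : ℤ) + u + 1 = A * 3 := by exact_mod_cast hj
      linear_combination (-1 : ℤ) * e1 + (-(u : ℤ)) * e2
    have hunit : (2 * (u : ℤ) - 1) * (2 * u + 3 - 4 * A) = 1 := by
      linear_combination (-4 : ℤ) * hA'
    rcases Int.eq_one_or_neg_one_of_mul_eq_one hunit with h | h
    · have hu1 : (u : ℤ) = 1 := by linarith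
      rw [hu1] at hA'
      omega
    · omega

/-- A simple group with fewer than `p ^ 2` Sylow subgroups, a prime power of them. -/
theorem isPSolvable_of_simple (G : Type u) [Group G] [Finite G] [IsSimpleGroup G]
    (hp2 : ¬ (3 < p ∧ ∃ k : ℕ, p + 1 = 2 ^ k)) (hn : Nat.card (Sylow p G) < p ^ 2) {q k : ℕ}
    (hq : q.Prime) (hqk : Nat.card (Sylow p G) = q ^ k) : IsPSolvable p G := by
  by_cases hpd : p ∣ Nat.card G
  swap
  · exact PSolv.isPSolvable_of_coprime ((hp.out.coprime_iff_not_dvd).2 hpd).symm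
  by_cases hG : IsMulCommutative G
  · refine PSolv.isPSolvable_of_isPGroup (IsPGroup.of_card (n := 1) ?_)
    rw [pow_one]
    exact ((Nat.prime_dvd_prime_iff_eq hp.out
      (SmallGroups.prime_card_of_isMulCommutative hG)).1 hpd).symm
  exfalso
  obtain ⟨P⟩ : Nonempty (Sylow p G) := inferInstance
  have h1n := SmallGroups.one_lt_card_sylow hG hpd
  have hidx : ∀ A B : Sylow p G, A ≠ B → (B : Subgroup G).relIndex A = p := by
    intro A B hAB
    obtain ⟨j, hj, hj'⟩ := SylowNum.relIndex_sylow_eq_pow A B hAB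
    have hle : Nat.card (MulAction.orbit (↥(A : Subgroup G)) B) ≤ Nat.card (Sylow p G) :=
      Nat.card_le_card_of_injective _ Subtype.val_injective
    rw [SylowNum.card_orbit_sylow, hj'] at hle
    have := (Nat.pow_lt_pow_iff_right hp.out.one_lt).1 (hle.trans_lt hn)
    rw [hj', show j = 1 by omega, pow_one]
  have hP : Nat.card P = p := SylowNum.card_eq_of_relIndex_eq hG hpd hidx P
  have hperf : commutator G = ⊤ := by
    refine ((commutator G).normal_of_characteristic.eq_bot_or_eq_top).resolve_left fun h => hG ?_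
    refine ⟨⟨fun a b => ?_⟩⟩
    have hab : ⁅a, b⁆ ∈ commutator G := commutator_mem_commutator (mem_top a) (mem_top b)
    rw [h, mem_bot, commutatorElement_eq_one_iff_mul_comm] at hab
    exact hab
  have hcore : pPrimeCore p G = ⊥ := by
    refine ((pPrimeCore_normal p G).eq_bot_or_eq_top).resolve_right fun h => ?_
    have := PSolv.coprime_card_pPrimeCore p G
    rw [h, card_top] at this
    exact (hp.out.coprime_iff_not_dvd).1 this.symm hpd
  have hge := (sylow_cases (p := p) G).resolve_left (by omega)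
  obtain ⟨a, ha⟩ : ∃ a, Nat.card (Sylow p G) = 1 + a * p := by
    refine ⟨Nat.card (Sylow p G) / p, ?_⟩
    have h := Nat.div_add_mod (Nat.card (Sylow p G)) p
    rw [sylow_mod] at h
    rw [mul_comm]; omega
  have hap : a < p := by
    by_contra hle
    have := Nat.mul_le_mul_right p (Nat.not_lt.1 hle)
    rw [pow_two] at hn
    omega
  have hquot : Nat.card (G ⧸ pPrimeCore p G) = Nat.card G := by
    rw [card_eq_card_quotient_mul_card_subgroup (pPrimeCore p G)]
    rw [show Nat.card (pPrimeCore p G) = 1 by rw [hcore, card_bot], mul_one]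
  have hidxP : (P : Subgroup G).index * p = Nat.card G := by
    rw [← (P : Subgroup G).index_mul_card]; exact congrArg _ hP.symm
  have hdvd : q ^ k ∣ (P : Subgroup G).index := hqk ▸ P.card_dvd_index
  rcases Cfsg.Agent.S4700.result hperf p P hP a ha with
    ⟨F, _, _, hF, hp3, ⟨e⟩⟩ | ⟨m, F, _, _, hF, hpm, hp3, ⟨e⟩⟩ | ⟨h, u, hh, hu, he⟩
  · rw [Nat.card_congr e.toEquiv] at hquot
    have hc := Linear.card_PSL_two_mul (F := F)
    have hg := Linear.gcd_two_of_odd (F := F) (by rw [hF]; exact hp.out.odd_of_ne_two (by omega))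
    rw [hquot, hg, hF, ← hidxP] at hc
    refine psl_case hq hp3 hp2 (hqk ▸ hge) ?_
    have : 2 * (P : Subgroup G).index = (p - 1) * (p + 1) := by
      refine Nat.eq_of_mul_eq_mul_right hp.out.pos ?_
      rw [mul_assoc, hc]; ring
    exact this ▸ mul_dvd_mul_left 2 hdvd
  · rw [Nat.card_congr e.toEquiv, Linear.card_SL_two, hF, ← hidxP, ← hpm] at hquot
    have hm : 1 < 2 ^ m := by omega
    refine sl_case hq hpm (hqk ▸ hge) ?_ hm
    rwa [Nat.eq_of_mul_eq_mul_right hp.out.pos hquot]
  · exact formula_case hq hap hh hu he (hqk ▸ ha)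

/-- The other direction. -/
theorem isPSolvable_of_prime_power (hp2 : ¬ (3 < p ∧ ∃ k : ℕ, p + 1 = 2 ^ k)) :
    ∀ (N : ℕ) (G : Type u) [Group G] [Finite G], Nat.card G = N →
      Nat.card (Sylow p G) < p ^ 2 →
      (∃ q k : ℕ, q.Prime ∧ Nat.card (Sylow p G) = q ^ k) → IsPSolvable p G := by
  intro N
  induction N using Nat.strong_induction_on with
  | _ N ih =>
    intro G _ _ hN hn hpp
    obtain ⟨q, k, hq, hqk⟩ := hpp
    subst hN
    by_cases hG : Nontrivial G
    swap
    · haveI := not_nontrivial_iff_subsingleton.1 hG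
      exact PSolv.isPSolvable_of_coprime (by simp [Nat.card_unique])
    by_cases hcon : ∃ K : Subgroup G, K.Normal ∧ K ≠ ⊥ ∧ K ≠ ⊤
    swap
    · haveI : IsSimpleGroup G := ⟨fun K hK => or_iff_not_imp_left.2 fun h => by
        by_contra h'; exact hcon ⟨K, hK, h, h'⟩⟩
      exact isPSolvable_of_simple G hp2 hn hq hqk
    obtain ⟨K, hKn, hK1, hK2⟩ := hcon
    haveI := hKn
    obtain ⟨P⟩ : Nonempty (Sylow p G) := inferInstance
    have hsmall : ∀ d, d ∣ Nat.card (Sylow p G) →
        d < p ^ 2 ∧ ∃ q k : ℕ, q.Prime ∧ d = q ^ k := by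
      intro d hd
      refine ⟨(Nat.le_of_dvd Nat.card_pos hd).trans_lt hn, ?_⟩
      rw [hqk] at hd
      obtain ⟨i, -, hi⟩ := (Nat.dvd_prime_pow hq).1 hd
      exact ⟨q, i, hq, hi⟩
    have hqd : Nat.card (Sylow p (G ⧸ K)) ∣ Nat.card (Sylow p G) :=
      Dvd.intro _ (SylowNum.card_sylow_eq_mul P K).symm
    have hKd : Nat.card (Sylow p K) ∣ Nat.card (Sylow p G) := by
      set H := normalizer ((P : Subgroup G) : Set G) with hH
      set M := normalizer (((P : Subgroup G) ⊓ K : Subgroup G) : Set G) with hM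
      have hHM : H ≤ M := (le_inf le_rfl le_normalizer_of_normal).trans
        inf_normalizer_le_normalizer_inf
      have hidx : ¬ p ∣ (P : Subgroup G).relIndex K := by
        intro h
        refine P.not_dvd_index ?_
        rw [SylowNum.index_eq_sup_mul (P : Subgroup G) K]
        exact h.mul_left _
      have hpg : IsPGroup p ((P : Subgroup G).subgroupOf K) :=
        P.isPGroup'.comap_of_injective K.subtype K.subtype_injective
      let Q : Sylow p K := hpg.toSylow hidx
      have hK : Nat.card (Sylow p K) = M.relIndex K := by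
        rw [Sylow.card_eq_index_normalizer Q]
        show (normalizer (((P : Subgroup G).subgroupOf K : Subgroup K) : Set K)).index = _
        rw [← inf_subgroupOf_right (P : Subgroup G) K, ← subgroupOf_normalizer_eq inf_le_right]
        rfl
      rw [hK, SylowNum.card_sylow_eq_index P, ← hH, SylowNum.index_eq_sup_mul H K]
      exact (relIndex_dvd_of_le_left K hHM).mul_left _
    refine PSolv.isPSolvable_of_extension K ?_ ?_
    · refine ih _ ?_ K rfl (hsmall _ hKd).1 (hsmall _ hKd).2
      exact lt_of_le_of_ne K.card_le_card_group fun h => hK2 (eq_top_of_card_eq K h)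
    · refine ih _ ?_ (G ⧸ K) rfl (hsmall _ hqd).1 (hsmall _ hqd).2
      rw [card_eq_card_quotient_mul_card_subgroup K]
      exact lt_mul_of_one_lt_right Nat.card_pos (K.one_lt_card_iff_ne_bot.2 hK1)

end Cfsg.Agent.SylowPSolv
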