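import Mathlib

/-!
# No strongly regular graph with 22 vertices and valency 9
-/

namespace Cfsg.Agent.SylowNum

open Matrix

local instance fact_prime_five : Fact (Nat.Prime 5) := ⟨by norm_num⟩

variable {V : Type*} [Fintype V] [DecidableEq V]

theorem no_srg (hV : Fintype.card V = 22) (adj : V → V → Prop) [DecidableRel adj]
    (hsym : ∀ a b, adj a b → adj b a) (hirr : ∀ a, ¬ adj a a)
    (hdeg : ∀ a, (Finset.univ.filter (adj a)).card = 9) (l m : ℕ) (hl : l ≤ 8)
    (hlam : ∀ a b, adj a b → (Finset.univ.filter fun x => adj a x ∧ adj x b).card = l)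
    (hmu : ∀ a b, a ≠ b → ¬ adj a b → (Finset.univ.filter fun x => adj a x ∧ adj x b).card = m) :
    False := by
  classical
  obtain ⟨a₀⟩ : Nonempty V := Fintype.card_pos_iff.1 (by omega)
  -- counting paths of length two
  have heq : 9 + 9 * l + 12 * m = 81 := by
    have h1 : ∑ b, (Finset.univ.filter fun x => adj a₀ x ∧ adj x b).card = 81 := by
      simp only [Finset.card_filter]
      rw [Finset.sum_comm]
      have : ∀ x, (∑ b, if adj a₀ x ∧ adj x b then 1 else 0) = if adj a₀ x then 9 else 0 := by
        intro x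
        by_cases hx : adj a₀ x
        · simp only [hx, true_and, if_true]
          rw [← Finset.card_filter, hdeg x]
        · simp [hx]
      rw [Finset.sum_congr rfl (fun x _ => this x), ← Finset.sum_filter, Finset.sum_const, hdeg a₀]
      rfl
    rw [← Finset.sum_filter_add_sum_filter_not Finset.univ (fun b => adj a₀ b),
      Finset.sum_congr rfl (fun b hb => hlam a₀ b (Finset.mem_filter.1 hb).2), Finset.sum_const, hdeg] at h1
    have ha₀ : a₀ ∈ Finset.univ.filter fun b => ¬ adj a₀ b :=
      Finset.mem_filter.2 ⟨Finset.mem_univ _, hirr a₀⟩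
    have h13 : (Finset.univ.filter fun b => ¬ adj a₀ b).card = 13 := by
      have := Finset.card_filter_add_card_filter_not (s := (Finset.univ : Finset V)) (fun b => adj a₀ b)
      rw [hdeg, Finset.card_univ, hV] at this
      omega
    have hdiag : (Finset.univ.filter fun x => adj a₀ x ∧ adj x a₀).card = 9 := by
      rw [← hdeg a₀]
      exact congrArg Finset.card (Finset.filter_congr fun x _ => ⟨And.left, fun h => ⟨h, hsym _ _ h⟩⟩)
    rw [← Finset.add_sum_erase _ _ ha₀, hdiag,
      Finset.sum_congr rfl (fun b hb => hmu a₀ b (Ne.symm (Finset.mem_erase.1 hb).1)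
        (Finset.mem_filter.1 (Finset.mem_erase.1 hb).2).2),
      Finset.sum_const, Finset.card_erase_of_mem ha₀, h13] at h1
    simp only [smul_eq_mul] at h1
    omega
  let M : Matrix V V (ZMod 5) := Matrix.of fun a b => if adj a b then 1 else 0
  let J : Matrix V V (ZMod 5) := Matrix.of fun _ _ => 1
  have hMM : M * M = (9 : ZMod 5) • 1 + (l : ZMod 5) • M + (m : ZMod 5) • (J - 1 - M) := by
    ext a b
    have h1 : (M * M) a b = ((Finset.univ.filter fun x => adj a x ∧ adj x b).card : ZMod 5) := by
      rw [Matrix.mul_apply, ← Finset.sum_boole]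
      refine Finset.sum_congr rfl fun x _ => ?_
      by_cases h : adj a x <;> by_cases h' : adj x b <;> simp [M, h, h']
    rw [h1]
    by_cases hab : a = b
    · subst hab
      have : (Finset.univ.filter fun x => adj a x ∧ adj x a).card = 9 := by
        rw [← hdeg a]
        exact congrArg Finset.card (Finset.filter_congr fun x _ => ⟨And.left, fun h => ⟨h, hsym _ _ h⟩⟩)
      rw [this]
      simp [M, J, hirr]
    · by_cases h : adj a b
      · rw [hlam a b h]; simp [M, J, h, hab]
      · rw [hmu a b hab h]; simp [M, J, h, hab]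
  have hMJ : M * J = (4 : ZMod 5) • J := by
    ext a b
    rw [Matrix.mul_apply]
    simp only [M, J, Matrix.of_apply, mul_one, Finset.sum_boole, hdeg, Matrix.smul_apply, smul_eq_mul]
    decide
  have hJM : J * M = (4 : ZMod 5) • J := by
    ext a b
    rw [Matrix.mul_apply]
    simp only [M, J, Matrix.of_apply, one_mul, Finset.sum_boole, Matrix.smul_apply, smul_eq_mul]
    rw [show (Finset.univ.filter fun x => adj x b) = Finset.univ.filter (adj b) from
      Finset.filter_congr fun x _ => ⟨hsym _ _, hsym _ _⟩, hdeg]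
    decide
  have hJJ : J * J = (2 : ZMod 5) • J := by
    ext a b
    simp [Matrix.mul_apply, J, hV]
    decide
  have htM : Matrix.trace M = 0 := by simp [Matrix.trace, M, hirr]
  have htJ : Matrix.trace J = 2 := by
    simp [Matrix.trace, J, hV]
    decide
  have ht1 : Matrix.trace (1 : Matrix V V (ZMod 5)) = 2 := by
    rw [Matrix.trace_one, hV]; decide
  have hcases : (l = 8 ∧ m = 0) ∨ (l = 4 ∧ m = 3) ∨ (l = 0 ∧ m = 6) := by omega
  have e5 : (5 : ZMod 5) = 0 := by decide
  rcases hcases with ⟨rfl, rfl⟩ | ⟨rfl, rfl⟩ | ⟨rfl, rfl⟩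
  · have hsq : (M + 1) ^ 2 = 0 := by
      rw [pow_two, mul_add, add_mul, mul_one, one_mul, hMM]
      ext a b
      simp only [Matrix.add_apply, Matrix.smul_apply, smul_eq_mul, Matrix.sub_apply, Matrix.zero_apply]
      push_cast
      linear_combination (2 * (1 : Matrix V V (ZMod 5)) a b + 2 * M a b) * e5
    have := (Matrix.isNilpotent_trace_of_isNilpotent ⟨2, hsq⟩).eq_zero
    rw [Matrix.trace_add, htM, ht1] at this
    exact absurd this (by decide)
  · have hsq : (M + (2 : ZMod 5) • 1 - (3 : ZMod 5) • J) ^ 2 = 0 := by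
      rw [pow_two]
      simp only [mul_add, add_mul, mul_sub, sub_mul, smul_mul_assoc, mul_smul_comm, mul_one, one_mul,
        hMJ, hJM, hJJ, hMM, smul_smul]
      ext a b
      simp only [Matrix.add_apply, Matrix.smul_apply, smul_eq_mul, Matrix.sub_apply, Matrix.zero_apply]
      push_cast
      linear_combination (2 * (1 : Matrix V V (ZMod 5)) a b + M a b - 3 * J a b) * e5
    have := (Matrix.isNilpotent_trace_of_isNilpotent ⟨2, hsq⟩).eq_zero
    rw [Matrix.trace_sub, Matrix.trace_add, Matrix.trace_smul, Matrix.trace_smul, htM, ht1, htJ] at this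
    exact absurd this (by decide)
  · have hsq : (M + (3 : ZMod 5) • 1) * (M + (3 : ZMod 5) • 1) =
        (2 : ZMod 5) • (1 + Matrix.replicateCol Unit (fun _ : V => (3 : ZMod 5)) *
          Matrix.replicateRow Unit (fun _ : V => (1 : ZMod 5))) := by
      simp only [mul_add, add_mul, smul_mul_assoc, mul_smul_comm, mul_one, one_mul, hMM]
      ext a b
      simp only [Matrix.add_apply, Matrix.smul_apply, smul_eq_mul, Matrix.sub_apply,
        Matrix.mul_apply, Matrix.replicateCol_apply, Matrix.replicateRow_apply, Finset.univ_unique,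
        Finset.sum_singleton, J, Matrix.of_apply]
      push_cast
      linear_combination (2 * (1 : Matrix V V (ZMod 5)) a b) * e5
    have hd := congrArg Matrix.det hsq
    rw [Matrix.det_mul, Matrix.det_smul, Matrix.det_one_add_replicateCol_mul_replicateRow, hV] at hd
    have hdot : (fun _ : V => (1 : ZMod 5)) ⬝ᵥ (fun _ : V => (3 : ZMod 5)) = 66 := by
      simp [dotProduct, hV]
      decide
    rw [hdot, show ((2 : ZMod 5) ^ 22 * (1 + 66)) = 3 by decide] at hd
    exact absurd hd ((by decide : ∀ d : ZMod 5, d * d ≠ 3) _)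

end Cfsg.Agent.SylowNum
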