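import Cfsg.Agent.SylowNum.Order3
import Cfsg.Agent.SylowNum.Graph
import Cfsg.Agent.SylowNum.Product

/-!
# No simple group has 22 Sylow 3-subgroups
-/

namespace Cfsg.Agent.SylowNum

open MulAction

variable {G : Type*} [Group G] [Finite G]

theorem relIndex_smul_smul {p : ℕ} (g : G) (A B : Sylow p G) :
    ((g • B : Sylow p G) : Subgroup G).relIndex (g • A : Sylow p G) =
      (B : Subgroup G).relIndex A := by
  rw [Sylow.coe_subgroup_smul, Sylow.coe_subgroup_smul]
  exact Subgroup.relIndex_map_map_of_injective _ _ (MulAut.conj g).injective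

/-- Sylow subgroups of a subgroup are conjugate in it. -/
theorem exists_smul_of_le {p : ℕ} [Fact p.Prime] {M : Subgroup G} (P R : Sylow p G)
    (hP : (P : Subgroup G) ≤ M) (hR : (R : Subgroup G) ≤ M) : ∃ u ∈ M, u • P = R := by
  obtain ⟨⟨u, hu⟩, hu'⟩ := MulAction.exists_smul_eq M (P.subtype hP) (R.subtype hR)
  rw [Sylow.smul_subtype] at hu'
  exact ⟨u, hu, Sylow.subtype_injective hu'⟩

theorem orbit_pow_le {α : Type*} [MulAction G α] [Finite α] {q : ℕ} [Fact q.Prime] {t : G}
    (ht : IsPGroup q (Subgroup.zpowers t)) {M : Subgroup G} (htM : t ∈ M) (a b : α)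
    (hb : b ∈ orbit M a) (hlt : Nat.card (orbit M a) < q) : t • b = b := by
  obtain ⟨k, hk⟩ := ht.card_orbit b
  have hsub : orbit (Subgroup.zpowers t) b ⊆ orbit M a := by
    rintro _ ⟨⟨s, hs⟩, rfl⟩
    rw [← orbit_eq_iff.2 hb]
    exact ⟨⟨s, (Subgroup.zpowers_le.2 htM) hs⟩, rfl⟩
  have hle : Nat.card (orbit (Subgroup.zpowers t) b) ≤ Nat.card (orbit M a) :=
    Nat.card_mono (Set.toFinite _) hsub
  have hk0 : k = 0 := by
    by_contra h
    have : q ≤ q ^ k := Nat.le_self_pow h q
    omega
  rw [hk0, pow_zero, Nat.card_eq_one_iff_unique] at hk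
  exact congrArg Subtype.val (hk.1.elim
    (⟨_, ⟨⟨t, Subgroup.mem_zpowers t⟩, rfl⟩⟩ : orbit (Subgroup.zpowers t) b) ⟨b, mem_orbit_self b⟩)

variable [IsSimpleGroup G]

/-- No simple group has exactly 22 Sylow 3-subgroups. -/
theorem no_simple_twentytwo (hG : ¬ IsMulCommutative G) [Fact (Nat.Prime 3)]
    (hn : Nat.card (Sylow 3 G) = 22) : False := by
  classical
  have : Fintype (Sylow 3 G) := Fintype.ofFinite _
  have hn' : Fintype.card (Sylow 3 G) = 22 := by rw [← Nat.card_eq_fintype_card]; exact hn
  obtain ⟨P⟩ : Nonempty (Sylow 3 G) := inferInstance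
  have hpd : 3 ∣ Nat.card G := by
    by_contra h
    have h1 : ∀ R : Sylow 3 G, (R : Subgroup G) = ⊥ := fun R => Subgroup.card_eq_one.1
      (by rw [R.card_eq_multiplicity, Nat.factorization_eq_zero_of_not_dvd h, pow_zero])
    have : Fintype.card (Sylow 3 G) ≤ 1 := Fintype.card_le_one_iff.2 fun A B =>
      Sylow.ext ((h1 A).trans (h1 B).symm)
    omega
  have hfaith : FaithfulSMul G (Sylow 3 G) := by
    obtain ⟨Q, hQ⟩ := Fintype.exists_ne_of_one_lt_card (by omega : 1 < Fintype.card (Sylow 3 G)) P
    obtain ⟨g, hg⟩ := MulAction.exists_smul_eq G P Q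
    exact faithfulSMul_of_moves (g := g) (a := P) (by rw [hg]; exact hQ)
  set H := stabilizer G P with hH
  have hHN : H = Subgroup.normalizer ((P : Subgroup G) : Set G) := by
    ext g; exact Sylow.smul_eq_iff_mem_normalizer
  have hHi : H.index = 22 := by rw [hH, index_stabilizer_of_transitive, hn]
  have hPH : (P : Subgroup G) ≤ H := hHN ▸ Subgroup.le_normalizer
  -- the stabiliser is maximal
  have hmax : ∀ M : Subgroup G, H ≤ M → M ≠ ⊤ → M = H := by
    intro M hM hne
    have h1 := Subgroup.relIndex_mul_index hM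
    rw [hHi] at h1
    have h2 := card_sylow_eq_relIndex P (hPH.trans hM)
    rw [← hHN] at h2
    have h3 := card_sylow_modEq_one 3 M
    rw [h2] at h3
    unfold Nat.ModEq at h3
    have h4 : H.relIndex M ∈ Nat.divisors 22 := Nat.mem_divisors.2 ⟨⟨_, h1.symm⟩, by norm_num⟩
    rw [show Nat.divisors 22 = {1, 2, 11, 22} by decide] at h4
    simp only [Finset.mem_insert, Finset.mem_singleton] at h4
    rcases h4 with h | h | h | h
    · exact le_antisymm (Subgroup.relIndex_eq_one.1 h) hM
    · omega
    · omega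
    · rw [h] at h1
      exact absurd (Subgroup.index_eq_one.1 (by omega)) hne
  -- orbit sizes
  have hsz : ∀ Q : Sylow 3 G, Q ≠ P →
      (Q : Subgroup G).relIndex P = 3 ∨ (Q : Subgroup G).relIndex P = 9 := by
    intro Q hQ
    obtain ⟨k, hk, hk'⟩ := relIndex_sylow_eq_pow P Q (Ne.symm hQ)
    have hle : Nat.card (orbit (↥(P : Subgroup G)) Q) ≤ 21 := by
      rw [Nat.card_coe_set_eq]
      refine (Set.ncard_le_ncard (t := {P}ᶜ) ?_ (Set.toFinite _)).trans ?_
      · intro R hR h
        exact not_mem_orbit_sylow P Q hQ (Set.mem_singleton_iff.1 h ▸ hR)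
      · rw [Set.ncard_compl, Set.ncard_singleton, hn]
    rw [card_orbit_sylow, hk'] at hle
    rw [hk']
    have hk3 : k < 3 := by
      by_contra h
      have := Nat.pow_le_pow_right (show 3 > 0 by norm_num) (le_of_not_gt h)
      omega
    interval_cases k
    · exact absurd rfl hk
    · left; rfl
    · right; rfl
  have hinv : ∀ (h : G), h ∈ H → ∀ Q : Sylow 3 G,
      ((h • Q : Sylow 3 G) : Subgroup G).relIndex P = (Q : Subgroup G).relIndex P := by
    intro h hh Q
    conv_lhs => rw [← (show h • P = P from hh)]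
    exact relIndex_smul_smul h P Q
  set S3 := Finset.univ.filter fun Q : Sylow 3 G => (Q : Subgroup G).relIndex P = 3 with hS3
  set S9 := Finset.univ.filter fun Q : Sylow 3 G => (Q : Subgroup G).relIndex P = 9 with hS9
  have hself : (P : Subgroup G).relIndex P = 1 := Subgroup.relIndex_self _
  have hsum : S3.card + S9.card = 21 := by
    rw [← Finset.card_union_of_disjoint (Finset.disjoint_filter.2 fun Q _ h1 h2 => by omega)]
    rw [show S3 ∪ S9 = Finset.univ.erase P by
      ext Q
      simp only [hS3, hS9, Finset.mem_union, Finset.mem_filter, Finset.mem_univ, true_and,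
        Finset.mem_erase, and_true]
      constructor
      · rintro h rfl
        omega
      · exact hsz Q]
    rw [Finset.card_erase_of_mem (Finset.mem_univ P), Finset.card_univ, hn']
  by_cases h9 : S9 = ∅
  · -- all intersections have index three
    have h3 : ∀ A B : Sylow 3 G, A ≠ B → (B : Subgroup G).relIndex A = 3 := by
      intro A B hAB
      obtain ⟨g, rfl⟩ := MulAction.exists_smul_eq G P A
      rw [show B = g • (g⁻¹ • B) by rw [smul_inv_smul], relIndex_smul_smul]
      have hne : g⁻¹ • B ≠ P := fun h => hAB (by rw [← h, smul_inv_smul])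
      refine (hsz _ hne).resolve_right fun h => ?_
      have : g⁻¹ • B ∈ S9 := Finset.mem_filter.2 ⟨Finset.mem_univ _, h⟩
      rw [h9] at this
      exact Finset.notMem_empty _ this
    exact no_order_three hG hn P (card_eq_of_relIndex_eq hG hpd h3 P)
  obtain ⟨Q9, hQ9⟩ := Finset.nonempty_iff_ne_empty.2 h9
  have h9P : 9 ∣ Nat.card (P : Subgroup G) := by
    rw [← (Finset.mem_filter.1 hQ9).2]; exact Subgroup.relIndex_dvd_card _ _
  have horb9 : ∀ Q ∈ S9, (orbit (↥(P : Subgroup G)) Q).toFinset ⊆ S9 ∧
      (orbit (↥(P : Subgroup G)) Q).toFinset.card = 9 := by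
    intro Q hQ
    refine ⟨fun R hR => ?_, ?_⟩
    · obtain ⟨⟨u, hu⟩, rfl⟩ := Set.mem_toFinset.1 hR
      exact Finset.mem_filter.2 ⟨Finset.mem_univ _,
        (hinv u (hPH hu) Q).trans (Finset.mem_filter.1 hQ).2⟩
    · rw [← Set.ncard_eq_toFinset_card', ← Nat.card_coe_set_eq, card_orbit_sylow]
      exact (Finset.mem_filter.1 hQ).2
  set O1 := (orbit (↥(P : Subgroup G)) Q9).toFinset with hO1
  have horbdisj : ∀ A B : Sylow 3 G, A ∉ (orbit (↥(P : Subgroup G)) B).toFinset →
      Disjoint (orbit (↥(P : Subgroup G)) B).toFinset (orbit (↥(P : Subgroup G)) A).toFinset := by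
    intro A B hAB
    rw [Finset.disjoint_left]
    intro R hR hR'
    rw [Set.mem_toFinset] at hR hR' hAB
    apply hAB
    rw [← orbit_eq_iff.2 hR, orbit_eq_iff.2 hR']
    exact mem_orbit_self A
  have hcases : (S9 = O1 ∧ S3.card = 12) ∨ S3.card = 3 := by
    have h1 := (horb9 Q9 hQ9).1
    have h1' := (horb9 Q9 hQ9).2
    by_cases h : S9 ⊆ O1
    · have : S9 = O1 := Finset.Subset.antisymm h h1
      left
      refine ⟨this, ?_⟩
      rw [this, hO1, h1'] at hsum
      omega
    · right
      obtain ⟨A, hA, hA'⟩ := Finset.not_subset.1 h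
      have hd := horbdisj A Q9 hA'
      have h2 := (horb9 A hA).1
      have h2' := (horb9 A hA).2
      set U := O1 ∪ (orbit (↥(P : Subgroup G)) A).toFinset with hU
      have hU18 : U.card = 18 := by rw [hU, Finset.card_union_of_disjoint hd, h1', h2']
      by_cases h' : S9 ⊆ U
      · have hc1 : S9.card ≤ U.card := Finset.card_le_card h'
        have hc2 : U.card ≤ S9.card := Finset.card_le_card (Finset.union_subset h1 h2)
        omega
      · obtain ⟨B, hB, hB'⟩ := Finset.not_subset.1 h'
        rw [hU, Finset.mem_union, not_or] at hB'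
        have hd3 : Disjoint U (orbit (↥(P : Subgroup G)) B).toFinset := by
          rw [hU, Finset.disjoint_union_left]
          exact ⟨horbdisj B Q9 hB'.1, horbdisj B A hB'.2⟩
        have := Finset.card_le_card (Finset.union_subset (Finset.union_subset h1 h2) (horb9 B hB).1 :
          U ∪ (orbit (↥(P : Subgroup G)) B).toFinset ⊆ S9)
        rw [Finset.card_union_of_disjoint hd3, hU18, (horb9 B hB).2] at this
        omega
  -- the intersection of index three attached to a member of `S3`
  let M : Sylow 3 G → Subgroup G := fun Q =>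
    Subgroup.normalizer (((P : Subgroup G) ⊓ Q : Subgroup G) : Set G)
  let fib : Sylow 3 G → Finset (Sylow 3 G) := fun Q =>
    S3.filter fun R => (P : Subgroup G) ⊓ R = (P : Subgroup G) ⊓ Q
  have hdata : ∀ Q ∈ S3, 3 ≤ (fib Q).card ∧ (fib Q).card % 3 = 0 ∧ 2 ≤ (M Q).relIndex H ∧
      (M Q).index * ((fib Q).card + 1) = 22 * (M Q).relIndex H ∧
      ((fib Q).card) * (M Q).relIndex H ≤ S3.card ∧
      orbit (M Q) P = ↑(insert P (fib Q)) ∧
      (((fib Q).card) * (M Q).relIndex H = S3.card →
        ∀ R ∈ S3, ∃ h ∈ H, ∃ R₀ ∈ fib Q, h • R₀ = R) := by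
    intro Q hQ
    set D := (P : Subgroup G) ⊓ Q with hD
    have hQ3 : (Q : Subgroup G).relIndex P = 3 := (Finset.mem_filter.1 hQ).2
    have hQP : Q ≠ P := by rintro rfl; omega
    have hDcard : Nat.card D * 3 = Nat.card (P : Subgroup G) := by
      have := card_inf_mul_relIndex P Q
      rwa [hQ3] at this
    have hDbot : D ≠ ⊥ := by
      intro h
      rw [h, Subgroup.card_bot, one_mul] at hDcard
      rw [← hDcard] at h9P
      norm_num at h9P
    have hMtop : M Q ≠ ⊤ := by
      intro h
      rcases (Subgroup.normalizer_eq_top_iff.1 h).eq_bot_or_eq_top with h' | h'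
      · exact hDbot h'
      · have hPtop : (P : Subgroup G) = ⊤ := top_le_iff.1 (h' ▸ inf_le_left)
        rw [hHN, Subgroup.normalizer_eq_top_iff.2 (hPtop ▸ inferInstance), Subgroup.index_top] at hHi
        omega
    have hle : ∀ R : Sylow 3 G, (P : Subgroup G) ⊓ R = D → R ≠ P → (R : Subgroup G).relIndex P = 3 →
        (R : Subgroup G) ≤ M Q := by
      intro R hR _ h3
      have hnR := inf_normal_of_relIndex R P (by rw [relIndex_sylow_comm, h3])
      rw [← Subgroup.inf_subgroupOf_right, hR] at hnR
      exact Subgroup.normal_subgroupOf_iff_le_normalizer (hR.ge.trans inf_le_right) |>.1 hnR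
    have hPM : (P : Subgroup G) ≤ M Q := by
      have hn2 := inf_normal_of_relIndex P Q hQ3
      rw [← Subgroup.inf_subgroupOf_left] at hn2
      exact Subgroup.normal_subgroupOf_iff_le_normalizer inf_le_left |>.1 hn2
    have hQfib : Q ∈ fib Q := Finset.mem_filter.2 ⟨hQ, rfl⟩
    -- the orbit of `P` under the normaliser of `D`
    have horbM : orbit (M Q) P = ↑(insert P (fib Q)) := by
      ext R
      rw [Finset.coe_insert, Set.mem_insert_iff]
      constructor
      · rintro ⟨⟨u, hu⟩, rfl⟩
        by_cases hR : u • P = P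
        · exact Or.inl hR
        right
        have hDR : D ≤ ((u • P : Sylow 3 G) : Subgroup G) := by
          intro y hy
          show y ∈ u • P
          rw [mem_smul_sylow]
          have := (Subgroup.mem_normalizer_iff.1 (inv_mem hu) y).1 hy
          rw [inv_inv] at this
          exact this.1
        have h1 : D ≤ (P : Subgroup G) ⊓ (u • P : Sylow 3 G) := le_inf inf_le_left hDR
        have h2 : ((u • P : Sylow 3 G) : Subgroup G).relIndex P = 3 := by
          rcases hsz _ hR with h | h
          · exact h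
          · exfalso
            have := card_inf_mul_relIndex P (u • P)
            rw [h] at this
            have := Subgroup.card_le_of_le h1
            nlinarith [Nat.card_pos (α := D)]
        have h3 : (P : Subgroup G) ⊓ (u • P : Sylow 3 G) = D := by
          refine (Subgroup.eq_of_le_of_card_ge h1 ?_).symm
          have := card_inf_mul_relIndex P (u • P)
          rw [h2] at this
          omega
        exact Finset.mem_filter.2 ⟨Finset.mem_filter.2 ⟨Finset.mem_univ _, h2⟩, h3⟩
      · rintro (rfl | hR)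
        · exact mem_orbit_self _
        · obtain ⟨hR3, hRD⟩ := Finset.mem_filter.1 hR
          have hR3' := (Finset.mem_filter.1 hR3).2
          obtain ⟨u, hu, hu'⟩ := exists_smul_of_le P R hPM
            (hle R hRD (by rintro rfl; omega) hR3')
          exact ⟨⟨u, hu⟩, hu'⟩
    have hf : (fib Q).card + 1 = H.relIndex (M Q) := by
      have h1 : (stabilizer (M Q) P).index = H.relIndex (M Q) := by
        congr 1
      rw [← h1, index_stabilizer, horbM, Set.ncard_coe_finset, Finset.card_insert_of_notMem]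
      intro h
      have := (Finset.mem_filter.1 (Finset.mem_filter.1 h).1).2
      omega
    have hf3 : (fib Q).card % 3 = 0 := by
      have h2 := card_sylow_eq_relIndex P hPM
      rw [← hHN, ← hf] at h2
      have h3 := card_sylow_modEq_one 3 (M Q)
      rw [h2] at h3
      unfold Nat.ModEq at h3
      omega
    have hm2 : 2 ≤ (M Q).relIndex H := by
      by_contra h
      have h0 : (M Q).relIndex H ≠ 0 := Subgroup.index_ne_zero_of_finite
      have hHM : H ≤ M Q := Subgroup.relIndex_eq_one.1 (by omega)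
      have hQH : (Q : Subgroup G) ≤ Subgroup.normalizer ((P : Subgroup G) : Set G) := by
        rw [← hHN, ← hmax _ hHM hMtop]
        exact hle Q rfl hQP hQ3
      have h2 : (Q : Subgroup G) ⊓ Subgroup.normalizer (P : Set G) = Q := inf_eq_left.2 hQH
      rw [Q.isPGroup'.inf_normalizer_sylow] at h2
      exact hQP (Sylow.ext (Q.is_maximal' P.isPGroup' (inf_eq_left.1 h2)).symm)
    have hidx : (M Q).index * ((fib Q).card + 1) = 22 * (M Q).relIndex H := by
      rw [hf, ← hHi]
      have h1 := Subgroup.relIndex_mul_index (inf_le_right : H ⊓ M Q ≤ M Q)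
      have h2 := Subgroup.relIndex_mul_index (inf_le_left : H ⊓ M Q ≤ H)
      rw [Subgroup.inf_relIndex_right] at h1
      rw [Subgroup.inf_relIndex_left] at h2
      rw [mul_comm, h1, ← h2, mul_comm]
    have hsmul : ∀ h ∈ H, ∀ R : Sylow 3 G, (P : Subgroup G) ⊓ (h • R : Sylow 3 G) =
        ((P : Subgroup G) ⊓ R).map (MulAut.conj h).toMonoidHom := by
      intro h hh R
      rw [Subgroup.map_inf _ _ _ (MulAut.conj h).injective]
      congr 1
      exact (congrArg Sylow.toSubgroup (show h • P = P from hh)).symm.trans Sylow.coe_subgroup_smul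
    let F : (H ⧸ (M Q).subgroupOf H) × {R // R ∈ fib Q} → {R // R ∈ S3} := fun x =>
      ⟨(x.1.out : G) • x.2.1, by
        have := (Finset.mem_filter.1 (Finset.mem_filter.1 x.2.2).1).2
        exact Finset.mem_filter.2 ⟨Finset.mem_univ _, (hinv _ x.1.out.2 _).trans this⟩⟩
    have hFinj : Function.Injective F := by
      rintro ⟨c, R⟩ ⟨c', R'⟩ h
      have h' : (c.out : G) • R.1 = (c'.out : G) • R'.1 := congrArg Subtype.val h
      have hcc : c = c' := by
        rw [← QuotientGroup.out_eq' c, ← QuotientGroup.out_eq' c', QuotientGroup.eq,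
          Subgroup.mem_subgroupOf]
        set g : G := ((c.out⁻¹ * c'.out : H) : G) with hg
        have hgH : g ∈ H := (c.out⁻¹ * c'.out).2
        have hgR : g • R'.1 = R.1 := by
          rw [hg, Subgroup.coe_mul, Subgroup.coe_inv, mul_smul, ← h', inv_smul_smul]
        show g ∈ Subgroup.normalizer (D : Set G)
        rw [Subgroup.mem_normalizer_iff_map_conj_eq]
        have h1 := hsmul g hgH R'.1
        rw [hgR, (Finset.mem_filter.1 R.2).2, (Finset.mem_filter.1 R'.2).2] at h1
        exact h1.symm
      subst hcc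
      exact Prod.ext rfl (Subtype.ext (smul_left_cancel _ h'))
    have hFcard : Nat.card ((H ⧸ (M Q).subgroupOf H) × {R // R ∈ fib Q}) =
        (fib Q).card * (M Q).relIndex H := by
      rw [Nat.card_prod, Nat.card_eq_fintype_card (α := {R // R ∈ fib Q}), Fintype.card_coe, mul_comm]
      rfl
    have hS3card : Nat.card {R // R ∈ S3} = S3.card := by
      rw [Nat.card_eq_fintype_card, Fintype.card_coe]
    have hfpos : 0 < (fib Q).card := Finset.card_pos.2 ⟨Q, hQfib⟩
    refine ⟨by omega, hf3, hm2, hidx, ?_, horbM, ?_⟩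
    · rw [← hFcard, ← hS3card]
      exact Nat.card_le_card_of_injective F hFinj
    · intro heq R hR
      have hb := (Nat.bijective_iff_injective_and_card F).2 ⟨hFinj, by rw [hFcard, hS3card, heq]⟩
      obtain ⟨⟨c, R₀⟩, hx⟩ := hb.2 ⟨R, hR⟩
      exact ⟨_, c.out.2, R₀.1, R₀.2, congrArg Subtype.val hx⟩
  obtain ⟨hS9eq, hS3c⟩ : S9 = O1 ∧ S3.card = 12 := by
    refine hcases.resolve_right fun h => ?_
    obtain ⟨Q, hQ⟩ := Finset.card_pos.1 (show 0 < S3.card by omega)
    obtain ⟨h1, -, h3, -, h5, -⟩ := hdata Q hQ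
    nlinarith
  have hfour : ∀ Q ∈ S3, (fib Q).card = 3 ∧ ((M Q).relIndex H = 2 ∨ (M Q).relIndex H = 4) := by
    intro Q hQ
    obtain ⟨h1, h2, h3, h4, h5, -⟩ := hdata Q hQ
    rw [hS3c] at h5
    have hm4 : (M Q).relIndex H ≤ 4 := by nlinarith
    have hf6 : (fib Q).card ≤ 6 := by nlinarith
    obtain ⟨m, hm⟩ : ∃ m, (M Q).relIndex H = m := ⟨_, rfl⟩
    obtain ⟨s, hs⟩ : ∃ s, (fib Q).card = s := ⟨_, rfl⟩
    rw [hm] at h3 h4 h5 hm4 ⊢
    rw [hs] at h1 h2 h4 h5 hf6 ⊢
    interval_cases s <;> interval_cases m <;> omega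
  by_cases h4 : ∃ Q ∈ S3, (M Q).relIndex H = 4
  · -- a strongly regular graph
    obtain ⟨Q, hQ, hm⟩ := h4
    obtain ⟨-, -, -, -, -, -, htrans⟩ := hdata Q hQ
    have htrans := htrans (by rw [(hfour Q hQ).1, hm, hS3c])
    -- `P` is transitive on the fibre
    have hfibP : ∀ R₀ ∈ fib Q, ∃ u ∈ (P : Subgroup G), u • Q = R₀ := by
      intro R₀ hR₀
      have hsub : (orbit (↥(P : Subgroup G)) Q).toFinset ⊆ fib Q := by
        intro R hR
        obtain ⟨⟨u, hu⟩, rfl⟩ := Set.mem_toFinset.1 hR
        show u • Q ∈ fib Q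
        refine Finset.mem_filter.2 ⟨Finset.mem_filter.2 ⟨Finset.mem_univ _,
          (hinv u (hPH hu) Q).trans (Finset.mem_filter.1 hQ).2⟩, ?_⟩
        have hn2 := inf_normal_of_relIndex P Q (Finset.mem_filter.1 hQ).2
        rw [← Subgroup.inf_subgroupOf_left] at hn2
        have hun := (Subgroup.normal_subgroupOf_iff_le_normalizer inf_le_left).1 hn2 hu
        calc (P : Subgroup G) ⊓ (u • Q : Sylow 3 G) =
              ((u • P : Sylow 3 G) : Subgroup G) ⊓ (u • Q : Sylow 3 G) := by
              rw [show u • P = P from hPH hu]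
          _ = ((P : Subgroup G) ⊓ Q).map (MulAut.conj u).toMonoidHom := by
              rw [Subgroup.map_inf _ _ _ (MulAut.conj u).injective]
              rfl
          _ = _ := Subgroup.mem_normalizer_iff_map_conj_eq.1 hun
      have := Finset.eq_of_subset_of_card_le hsub (by
        rw [(hfour Q hQ).1, ← Set.ncard_eq_toFinset_card', ← Nat.card_coe_set_eq, card_orbit_sylow,
          (Finset.mem_filter.1 hQ).2])
      rw [← this, Set.mem_toFinset] at hR₀
      obtain ⟨⟨u, hu⟩, hu'⟩ := hR₀
      exact ⟨u, hu, hu'⟩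
    have htr : ∀ R ∈ S3, ∃ h ∈ H, h • Q = R := by
      intro R hR
      obtain ⟨h, hh, R₀, hR₀, rfl⟩ := htrans R hR
      obtain ⟨u, hu, rfl⟩ := hfibP R₀ hR₀
      exact ⟨h * u, mul_mem hh (hPH hu), mul_smul _ _ _⟩
    have hadj : ∀ (g : G) (A B : Sylow 3 G),
        ((g • B : Sylow 3 G) : Subgroup G).relIndex (g • A : Sylow 3 G) = (B : Subgroup G).relIndex A :=
      relIndex_smul_smul
    let common : Sylow 3 G → Sylow 3 G → ℕ := fun A B => (Finset.univ.filter fun X : Sylow 3 G =>
      (X : Subgroup G).relIndex A = 9 ∧ (B : Subgroup G).relIndex X = 9).card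
    have hcommon : ∀ (g : G) A B, common (g • A) (g • B) = common A B := by
      intro g A B
      refine (Finset.card_bij (fun X _ => g • X) ?_ (fun _ _ _ _ h => smul_left_cancel g h) ?_).symm
      · intro X hX
        simp only [Finset.mem_filter, Finset.mem_univ, true_and] at hX ⊢
        rw [hadj, hadj]; exact hX
      · intro X hX
        refine ⟨g⁻¹ • X, ?_, smul_inv_smul g X⟩
        simp only [Finset.mem_filter, Finset.mem_univ, true_and] at hX ⊢
        rw [← hadj g A, ← hadj g _ B, smul_inv_smul]; exact hX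
    refine no_srg hn' (fun A B : Sylow 3 G => (B : Subgroup G).relIndex A = 9) ?_ ?_ ?_
      (common P Q9) (common P Q) ?_ ?_ ?_
    · intro A B h
      rw [relIndex_sylow_comm]; exact h
    · intro A h
      rw [Subgroup.relIndex_self] at h
      omega
    · intro A
      obtain ⟨g, rfl⟩ := MulAction.exists_smul_eq G P A
      refine ((Finset.card_bij (s := S9) (fun X _ => g • X) ?_ (fun _ _ _ _ h => smul_left_cancel g h) ?_).symm).trans
        ((congrArg Finset.card hS9eq).trans (horb9 Q9 hQ9).2)
      · intro X hX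
        simp only [hS9, Finset.mem_filter, Finset.mem_univ, true_and] at hX ⊢
        rw [hadj]; exact hX
      · intro X hX
        refine ⟨g⁻¹ • X, ?_, smul_inv_smul g X⟩
        simp only [hS9, Finset.mem_filter, Finset.mem_univ, true_and] at hX ⊢
        rw [← hadj g, smul_inv_smul]; exact hX
    · -- at most eight common neighbours
      have hss : (Finset.univ.filter fun X : Sylow 3 G => (X : Subgroup G).relIndex P = 9 ∧
          (Q9 : Subgroup G).relIndex X = 9) ⊆ S9.erase Q9 := by
        intro X hX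
        simp only [hS9, Finset.mem_filter, Finset.mem_univ, true_and, Finset.mem_erase] at hX ⊢
        refine ⟨fun h => ?_, hX.1⟩
        rw [h, Subgroup.relIndex_self] at hX
        omega
      have := Finset.card_le_card hss
      rw [Finset.card_erase_of_mem hQ9, hS9eq, hO1, (horb9 Q9 hQ9).2] at this
      exact this
    · intro A B hAB
      obtain ⟨g, rfl⟩ := MulAction.exists_smul_eq G P A
      rw [← smul_inv_smul g B] at hAB ⊢
      rw [hadj] at hAB
      show common (g • P) (g • (g⁻¹ • B)) = _
      rw [hcommon]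
      have hm9 : g⁻¹ • B ∈ S9 := Finset.mem_filter.2 ⟨Finset.mem_univ _, hAB⟩
      rw [hS9eq, hO1, Set.mem_toFinset] at hm9
      obtain ⟨⟨u, hu⟩, hu'⟩ := hm9
      change u • Q9 = g⁻¹ • B at hu'
      rw [← hu', ← hcommon u P Q9, show u • P = P from hPH hu]
    · intro A B hne hAB
      obtain ⟨g, rfl⟩ := MulAction.exists_smul_eq G P A
      rw [← smul_inv_smul g B] at hAB hne ⊢
      rw [hadj] at hAB
      show common (g • P) (g • (g⁻¹ • B)) = _
      rw [hcommon]
      have hneP : g⁻¹ • B ≠ P := fun h => hne (by rw [h])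
      have hm3 : g⁻¹ • B ∈ S3 :=
        Finset.mem_filter.2 ⟨Finset.mem_univ _, (hsz _ hneP).resolve_right hAB⟩
      obtain ⟨h, hh, hh'⟩ := htr _ hm3
      rw [← hh', ← hcommon h P Q, show h • P = P from hh]
  · -- a subgroup of index 11
    push Not at h4
    have hall : ∀ Q ∈ S3, (M Q).relIndex H = 2 := fun Q hQ =>
      (hfour Q hQ).2.resolve_right (h4 Q hQ)
    obtain ⟨Q, hQ⟩ := Finset.card_pos.1 (show 0 < S3.card by omega)
    obtain ⟨-, -, -, h44, -⟩ := hdata Q hQ
    rw [(hfour Q hQ).1, hall Q hQ] at h44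
    have hM11 : (M Q).index = 11 := by omega
    have hf11 : Fact (Nat.Prime 11) := ⟨by norm_num⟩
    have hf5 : Fact (Nat.Prime 5) := ⟨by norm_num⟩
    have hfM : FaithfulSMul G (G ⧸ M Q) := by
      obtain ⟨g, hg⟩ : ∃ g : G, g ∉ M Q := by
        by_contra h
        push Not at h
        rw [show M Q = ⊤ from (Subgroup.eq_top_iff' _).2 h, Subgroup.index_top] at hM11
        omega
      refine faithfulSMul_of_moves (g := g) (a := ((1 : G) : G ⧸ M Q)) fun h => hg ?_
      rw [MulAction.Quotient.smul_coe, smul_eq_mul, mul_one, QuotientGroup.eq, mul_one] at h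
      exact inv_mem_iff.1 h
    have hcardG : Nat.card G = 11 * Nat.card (M Q) := by
      rw [← (M Q).card_mul_index, hM11, mul_comm]
    have h121 : ¬ 11 ∣ Nat.card (M Q) := by
      intro h
      have hd : Nat.card G ∣ Nat.card (Equiv.Perm (G ⧸ M Q)) :=
        Subgroup.card_dvd_of_injective (MulAction.toPermHom G (G ⧸ M Q))
          (fun a b hab => FaithfulSMul.eq_of_smul_eq_smul (α := G ⧸ M Q)
            (fun x => Equiv.ext_iff.1 hab x))
      rw [Nat.card_perm, show Nat.card (G ⧸ M Q) = 11 from hM11, hcardG] at hd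
      have h' := (Nat.mul_dvd_mul_left 11 h).trans hd
      rw [show Nat.factorial 11 = 39916800 by rfl] at h'
      norm_num at h'
    obtain ⟨R⟩ : Nonempty (Sylow 11 G) := inferInstance
    have hR : Nat.card R = 11 :=
      (Cfsg.Agent.SmallGroups.card_sylow_subgroup (p := 11) (a := 1) (m := Nat.card (M Q))
        (by rw [hcardG, pow_one]) h121 R).trans (pow_one 11)
    have hfree : ∀ a : G ⧸ M Q, ¬ (R : Subgroup G) ≤ stabilizer G a := by
      intro a hle
      have h1 := Subgroup.card_dvd_of_le hle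
      rw [hR] at h1
      apply h121
      have h2 := (stabilizer G a).card_mul_index
      rw [index_stabilizer_of_transitive, show Nat.card (G ⧸ M Q) = 11 from hM11, hcardG] at h2
      rwa [show Nat.card (M Q) = Nat.card (stabilizer G a) by omega]
    have h5 := normalizer_eleven_of_card_eleven hG (α := G ⧸ M Q) R hR hfree hM11
    rw [hcardG] at h5
    obtain ⟨⟨t, htM⟩, ht⟩ := exists_prime_orderOf_dvd_card' 5
      (((Nat.Prime.dvd_mul (by norm_num)).1 h5).resolve_left (by norm_num))
    rw [Subgroup.orderOf_mk] at ht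
    have htp : IsPGroup 5 (Subgroup.zpowers t) :=
      IsPGroup.of_card (n := 1) (by rw [Nat.card_zpowers, ht, pow_one])
    have hsmall : ∀ A ∈ S3, Nat.card (orbit (M A) P) < 5 := by
      intro A hA
      obtain ⟨-, -, -, -, -, h6, -⟩ := hdata A hA
      rw [h6, Nat.card_coe_set_eq, Set.ncard_coe_finset]
      have := Finset.card_insert_le P (fib A)
      rw [(hfour A hA).1] at this
      omega
    have htH : t ∈ H :=
      orbit_pow_le htp htM P P (mem_orbit_self P) (hsmall Q hQ)
    have ht5 : t ^ 5 = 1 := by rw [← ht]; exact pow_orderOf_eq_one t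
    have hfix3 : ∀ A ∈ S3, t • A = A := by
      intro A hA
      have htA : t ∈ M A := by
        have h2 : ((M A).subgroupOf H).index = 2 := hall A hA
        have hsq := Subgroup.sq_mem_of_index_two h2 (⟨t, htH⟩ : H)
        rw [Subgroup.mem_subgroupOf] at hsq
        have : t = (t ^ 2) ^ 3 := by
          rw [← pow_mul, show 2 * 3 = 5 + 1 from rfl, pow_succ, ht5, one_mul]
        rw [this]
        exact pow_mem hsq 3
      obtain ⟨-, -, -, -, -, h6, -⟩ := hdata A hA
      refine orbit_pow_le htp htA P A ?_ (hsmall A hA)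
      rw [h6, Finset.coe_insert]
      exact Set.mem_insert_of_mem _ (Finset.mem_filter.2 ⟨hA, rfl⟩)
    -- fixed points on the orbit of length nine
    let F : Set (Sylow 3 G) := {b | b ∈ orbit (↥(P : Subgroup G)) Q9}
    have hF9 : Nat.card (orbit (↥(P : Subgroup G)) Q9) = 9 := by
      rw [card_orbit_sylow]; exact (Finset.mem_filter.1 hQ9).2
    have hinvt : ∀ b ∈ orbit (↥(P : Subgroup G)) Q9, t • b ∈ orbit (↥(P : Subgroup G)) Q9 := by
      intro b hb
      have hb' : b ∈ S9 := by rw [hS9eq, hO1, Set.mem_toFinset]; exact hb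
      have : t • b ∈ S9 :=
        Finset.mem_filter.2 ⟨Finset.mem_univ _, (hinv t htH b).trans (Finset.mem_filter.1 hb').2⟩
      rw [hS9eq, hO1, Set.mem_toFinset] at this
      exact this
    let σ : Equiv.Perm {b : Sylow 3 G // b ∈ orbit (↥(P : Subgroup G)) Q9} :=
      Equiv.ofBijective (fun b => ⟨t • b.1, hinvt b.1 b.2⟩)
        ((Finite.injective_iff_bijective).1 fun b c h =>
          Subtype.ext (smul_left_cancel t (congrArg Subtype.val h)))
    have hσpow : ∀ (n : ℕ) b, ((σ ^ n) b).1 = t ^ n • b.1 := by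
      intro n
      induction n with
      | zero => intro b; simp
      | succ n ih =>
        intro b
        rw [pow_succ' σ, Equiv.Perm.mul_apply]
        show t • ((σ ^ n) b).1 = _
        rw [ih, pow_succ', mul_smul]
    obtain ⟨a, ha⟩ := Equiv.Perm.exists_fixed_point_of_prime (p := 5) (n := 1)
      (by rw [← Nat.card_eq_fintype_card]
          show ¬ 5 ∣ Nat.card (orbit (↥(P : Subgroup G)) Q9)
          rw [hF9]; norm_num) (σ := σ)
      (Equiv.ext fun b => Subtype.ext (by rw [pow_one, hσpow, ht5, one_smul]; rfl))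
    have ha' : t • a.1 = a.1 := congrArg Subtype.val ha
    obtain ⟨i, hi⟩ := card_fixed_in_orbit (p := 3) (q := 5) (by norm_num) (P : Subgroup G) P.isPGroup' t
      (fun u hu => (Subgroup.mem_normalizer_iff.1 (hHN ▸ htH) u).1 hu) ht5 a.1 ha'
    have heqo : orbit (↥(P : Subgroup G)) a.1 = orbit (↥(P : Subgroup G)) Q9 := orbit_eq_iff.2 a.2
    rw [heqo] at hi
    -- congruence modulo five
    have hmod : Nat.card {b : Sylow 3 G // b ∈ orbit (↥(P : Subgroup G)) Q9} ≡
        Nat.card {b : Sylow 3 G // b ∈ orbit (↥(P : Subgroup G)) Q9 ∧ t • b = b} [MOD 5] := by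
      have hsupp : 5 ∣ σ.support.card := by
        by_cases h1 : σ = 1
        · simp [h1]
        have ho : orderOf σ = 5 := orderOf_eq_prime
          (Equiv.ext fun b => Subtype.ext (by rw [hσpow, ht5, one_smul]; rfl)) h1
        obtain ⟨n, hn2⟩ := Equiv.Perm.cycleType_prime_order (σ := σ) (by rw [ho]; norm_num)
        rw [← σ.sum_cycleType, hn2, Multiset.sum_replicate, ho, smul_eq_mul]
        exact dvd_mul_left _ _
      have hcompl : Nat.card {b : Sylow 3 G // b ∈ orbit (↥(P : Subgroup G)) Q9 ∧ t • b = b} =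
          Nat.card {b : Sylow 3 G // b ∈ orbit (↥(P : Subgroup G)) Q9} - σ.support.card := by
        rw [← Nat.card_congr (Equiv.subtypeSubtypeEquivSubtypeInter
          (fun b => b ∈ orbit (↥(P : Subgroup G)) Q9) (fun b => t • b = b)), Nat.card_eq_fintype_card,
          Nat.card_eq_fintype_card, Fintype.card_subtype, ← Finset.card_compl]
        congr 1
        ext b
        simp only [Finset.mem_filter, Finset.mem_univ, true_and, Finset.mem_compl,
          Equiv.Perm.mem_support, not_not, Subtype.ext_iff]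
        rfl
      rw [hcompl]
      exact ((Nat.modEq_iff_dvd' (Nat.sub_le _ _)).2
        (by rw [Nat.sub_sub_self ((Finset.card_le_univ _).trans (by rw [Nat.card_eq_fintype_card]))]; exact hsupp)).symm
    rw [hi] at hmod
    have h9' : Nat.card {b : Sylow 3 G // b ∈ orbit (↥(P : Subgroup G)) Q9} = 9 := hF9
    rw [h9'] at hmod
    have hle9 : 3 ^ i ≤ 9 := by
      rw [← hi, ← h9']
      exact Nat.card_le_card_of_injective (fun b => ⟨b.1, b.2.1⟩) fun b c h =>
        Subtype.ext (congrArg (fun x : {b : Sylow 3 G // b ∈ orbit (↥(P : Subgroup G)) Q9} => x.1) h)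
    have hi2 : i = 2 := by
      have : i ≤ 2 := (Nat.pow_le_pow_iff_right (by norm_num)).1 (show 3 ^ i ≤ 3 ^ 2 by simpa using hle9)
      interval_cases i
      · exact absurd hmod (by decide)
      · exact absurd hmod (by decide)
      · rfl
    have hall9 : ∀ b ∈ S9, t • b = b := by
      intro b hb
      rw [hS9eq, hO1, Set.mem_toFinset] at hb
      have hbij := (Nat.bijective_iff_injective_and_card
        (fun b : {b : Sylow 3 G // b ∈ orbit (↥(P : Subgroup G)) Q9 ∧ t • b = b} =>
          (⟨b.1, b.2.1⟩ : {b : Sylow 3 G // b ∈ orbit (↥(P : Subgroup G)) Q9}))).2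
        ⟨fun b c h => Subtype.ext (congrArg (fun x : {b : Sylow 3 G // b ∈ orbit (↥(P : Subgroup G)) Q9} => x.1) h),
          by rw [hi, hi2, h9']; rfl⟩
      obtain ⟨c, hc⟩ := hbij.2 ⟨b, hb⟩
      have : c.1 = b := congrArg Subtype.val hc
      exact this ▸ c.2.2
    have ht1 : t = 1 := by
      apply FaithfulSMul.eq_of_smul_eq_smul (α := Sylow 3 G)
      intro b
      rw [one_smul]
      by_cases hb : b = P
      · rw [hb]; exact htH
      rcases hsz b hb with h | h
      · exact hfix3 b (Finset.mem_filter.2 ⟨Finset.mem_univ _, h⟩)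
      · exact hall9 b (Finset.mem_filter.2 ⟨Finset.mem_univ _, h⟩)
    rw [ht1, orderOf_one] at ht
    norm_num at ht

end Cfsg.Agent.SylowNum
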